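import Cfsg.Agent.AltCent.Fixed

/-! # Passing to derived vectors

Checks that a base is an eigenvector for a list of generators, and that iterated bases vanish. -/

set_option autoImplicit false

namespace CfsgLib.AltCent

/-- Eigenvector witnesses for a list of generators. -/
def gensEigenOK (p : ℕ) (b : Base) (B : Grp) :
    List (ℕ × ℕ) → List (List (ℕ × ℕ) × List (ℕ × ℕ) × List (ℕ × ℕ)) → Bool
  | [], [] => true
  | (a, s) :: l, (items, q₁, q₂) :: m => eigenOK p a s b B items q₁ q₂ && gensEigenOK p b B l m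
  | _, _ => false

variable {n p : ℕ} {V : Type*} [AddCommGroup V] [DistribMulAction (alternatingGroup (Fin n)) V]
  {v : V} {B : Grp}

theorem gensEigenOK_spec (hn : n ≤ 10) (hp : ∀ x : V, p • x = 0) (hB : Acts (n := n) v B) {b : Base}
    (hb : GoodTab n b.tbl b.cnt) :
    ∀ (l : List (ℕ × ℕ)) (m : List (List (ℕ × ℕ) × List (ℕ × ℕ) × List (ℕ × ℕ))),
      gensEigenOK p b B l m = true → (∀ g ∈ l, Good n g.1) →
        ∀ g ∈ l, el n g.1 • bval (n := n) v b = g.2 • bval (n := n) v b := by
  intro l
  induction l with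
  | nil => intro _ _ _ g hg; simp at hg
  | cons x l ih =>
    intro m h hgood g hg
    obtain ⟨a, s⟩ := x
    match m, h with
    | [], h => simp [gensEigenOK] at h
    | (items, q₁, q₂) :: m, h =>
      simp only [gensEigenOK, Bool.and_eq_true] at h
      rcases List.mem_cons.1 hg with rfl | hg
      · exact eigenOK_spec hn hp hB (hgood (a, s) List.mem_cons_self) hb h.1
      · exact ih m h.2 (fun y hy => hgood y (List.mem_cons_of_mem _ hy)) g hg

theorem lsum_pt_eq_map (v : V) (tbl : ℕ) : ∀ l : List (ℕ × ℕ),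
    lsum (pt (n := n) v tbl) l =
      ((l.map fun x => (get tbl x.1, x.2)).map fun y => y.2 • el n y.1 • v).sum
  | [] => rfl
  | x :: l => by simp [lsum_pt_eq_map v tbl l, pt]

/-- A base evaluated at the value of another base, through a combination certificate. -/
theorem bval_bval (hn : n ≤ 10) (hp : ∀ x : V, p • x = 0) (hB : Acts (n := n) v B) {b c : Base}
    {tbl : ℕ} (hc : c.tbl = tbl) (hcg : GoodTab n c.tbl c.cnt)
    {l₁ : List (ℕ × ℕ × ℕ × List (ℕ × ℕ))} (hl₁ : combOK p B [c] l₁ = true)
    (hg₁ : ∀ x ∈ l₁, Good n x.1) (hi : l₁.all (fun x => x.2.1 == 0) = true)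
    (hmap : (l₁.map fun x => (x.1, x.2.2.1)) = b.pts.map fun x => (get b.tbl x.1, x.2)) :
    bval (n := n) (bval (n := n) v c) b = lsum (pt (n := n) v tbl) (combPairs p B [c] l₁) := by
  rw [combOK_spec hn hp hB (by simp [hc]) (by simpa using hcg) l₁ hl₁ hg₁, bval, lsum_pt_eq_map,
    ← hmap, List.map_map]
  refine congrArg List.sum (List.map_congr_left fun x hx => ?_)
  simp only [List.all_eq_true, beq_iff_eq] at hi
  simp [hi x hx]

/-- A combination of translates of vanishing bases vanishes. -/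
theorem combPairs_zero (hn : n ≤ 10) (hp : ∀ x : V, p • x = 0) (hB : Acts (n := n) v B) {tbl : ℕ}
    {bs : List Base} (htbl : ∀ b ∈ bs, b.tbl = tbl) (hg : ∀ b ∈ bs, GoodTab n b.tbl b.cnt)
    (hz : ∀ b ∈ bs, bval (n := n) v b = 0) {l : List (ℕ × ℕ × ℕ × List (ℕ × ℕ))}
    (hl : combOK p B bs l = true) (hgood : ∀ x ∈ l, Good n x.1) :
    lsum (pt (n := n) v tbl) (combPairs p B bs l) = 0 := by
  rw [combOK_spec hn hp hB htbl hg l hl hgood]
  refine List.sum_eq_zero fun y hy => ?_
  obtain ⟨x, hx, rfl⟩ := List.mem_map.1 hy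
  by_cases hi : x.2.1 < bs.length
  · rw [List.getD_eq_getElem bs _ hi, hz _ (List.getElem_mem hi), smul_zero, smul_zero]
  · rw [List.getD_eq_default bs _ (by omega)]
    simp [bval]

/-- The value of a base does not vanish only if some translate does not. -/
theorem el_smul_eq_of_mem_table (hB : Acts (n := n) v B) {c s i : ℕ} (hi : i < B.cnt)
    (hc : get B.tbl i = c) (hw : getW B.wts i = s) : el n c • v = s • v := by
  rw [← hc, ← hw, hB.smul i hi]

end CfsgLib.AltCent
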