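import Mathlib

/-! # Formal combinations packed in lanes of one natural number

A list of pairs `(index, weight)` is packed with 20-bit lanes, so that equality of two combinations is
one comparison of big numbers. -/

set_option autoImplicit false

namespace CfsgLib.AltCent

/-- The packed form of a list of weighted indices. -/
def lanes : List (ℕ × ℕ) → ℕ
  | [] => 0
  | (j, w) :: l => (w <<< (20 * j)) + lanes l

/-- The total weight. -/
def total : List (ℕ × ℕ) → ℕ
  | [] => 0
  | (_, w) :: l => w + total l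

/-- Multiply all weights. -/
def scaleL (p : ℕ) : List (ℕ × ℕ) → List (ℕ × ℕ)
  | [] => []
  | (j, w) :: l => (j, p * w) :: scaleL p l

/-- Congruence of two packed combinations modulo `p`, with witnesses. -/
def eqMod (p : ℕ) (l₁ l₂ q₁ q₂ : List (ℕ × ℕ)) : Bool :=
  Nat.blt (total (l₁ ++ scaleL p q₂)) (1 <<< 20) && Nat.blt (total (l₂ ++ scaleL p q₁)) (1 <<< 20) &&
    Nat.beq (lanes (l₁ ++ scaleL p q₂)) (lanes (l₂ ++ scaleL p q₁))

/-- The coefficient function. -/
noncomputable def toF : List (ℕ × ℕ) → ℕ →₀ ℕ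
  | [] => 0
  | (j, w) :: l => Finsupp.single j w + toF l

theorem toF_le_total (l : List (ℕ × ℕ)) (j : ℕ) : toF l j ≤ total l := by
  induction l with
  | nil => simp [toF]
  | cons x l ih =>
    obtain ⟨i, w⟩ := x
    simp only [toF, total, Finsupp.add_apply, Finsupp.single_apply]
    split <;> omega

theorem lanes_eq_sum (l : List (ℕ × ℕ)) : lanes l = (toF l).sum fun j w => w * 2 ^ (20 * j) := by
  induction l with
  | nil => simp [lanes, toF]
  | cons x l ih =>
    obtain ⟨i, w⟩ := x
    rw [lanes, toF, Finsupp.sum_add_index' (fun _ => by simp) (fun _ a b => by ring),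
      Finsupp.sum_single_index (by simp), ← ih, Nat.shiftLeft_eq]

theorem range_sum_inj {B : ℕ} : ∀ (N : ℕ) (f g : ℕ → ℕ),
    (∀ i < N, f i < B) → (∀ i < N, g i < B) →
    ∑ i ∈ Finset.range N, f i * B ^ i = ∑ i ∈ Finset.range N, g i * B ^ i → ∀ i < N, f i = g i := by
  intro N
  induction N with
  | zero => intro f g _ _ _ i hi; omega
  | succ N ih =>
    intro f g hf hg h
    have e : ∀ u : ℕ → ℕ, ∑ i ∈ Finset.range (N + 1), u i * B ^ i =
        u 0 + B * ∑ i ∈ Finset.range N, u (i + 1) * B ^ i := by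
      intro u
      rw [Finset.sum_range_succ', Finset.mul_sum, add_comm]
      congr 1
      · ring
      · exact Finset.sum_congr rfl fun i _ => by ring
    rw [e f, e g] at h
    have hB : 0 < B := lt_of_le_of_lt (Nat.zero_le _) (hf 0 (by omega))
    have h0 : f 0 = g 0 := by
      have := congrArg (· % B) h
      simpa [Nat.add_mul_mod_self_left, Nat.mod_eq_of_lt (hf 0 (by omega)),
        Nat.mod_eq_of_lt (hg 0 (by omega))] using this
    have h1 : ∑ i ∈ Finset.range N, f (i + 1) * B ^ i = ∑ i ∈ Finset.range N, g (i + 1) * B ^ i := by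
      rw [h0] at h
      exact Nat.eq_of_mul_eq_mul_left hB (Nat.add_left_cancel h)
    intro i hi
    match i with
    | 0 => exact h0
    | i + 1 =>
      exact ih (fun i => f (i + 1)) (fun i => g (i + 1)) (fun i hi => hf _ (by omega))
        (fun i hi => hg _ (by omega)) h1 i (by omega)

theorem toF_eq_of_lanes_eq {l₁ l₂ : List (ℕ × ℕ)} (h₁ : total l₁ < 2 ^ 20) (h₂ : total l₂ < 2 ^ 20)
    (h : lanes l₁ = lanes l₂) : toF l₁ = toF l₂ := by
  obtain ⟨N, hN⟩ : ∃ N, (toF l₁).support ∪ (toF l₂).support ⊆ Finset.range N :=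
    Finset.exists_nat_subset_range _
  have e : ∀ l, (toF l).support ⊆ Finset.range N →
      lanes l = ∑ i ∈ Finset.range N, toF l i * (2 ^ 20) ^ i := by
    intro l hl
    rw [lanes_eq_sum, Finsupp.sum_of_support_subset _ hl _ (fun _ _ => by simp)]
    exact Finset.sum_congr rfl fun i _ => by rw [pow_mul]
  rw [e l₁ (Finset.union_subset_left hN), e l₂ (Finset.union_subset_right hN)] at h
  refine Finsupp.ext fun i => ?_
  by_cases hi : i < N
  · exact range_sum_inj N _ _ (fun i _ => lt_of_le_of_lt (toF_le_total _ _) h₁)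
      (fun i _ => lt_of_le_of_lt (toF_le_total _ _) h₂) h i hi
  · have e1 : i ∉ (toF l₁).support := fun hm =>
      hi (Finset.mem_range.1 (Finset.union_subset_left hN hm))
    have e2 : i ∉ (toF l₂).support := fun hm =>
      hi (Finset.mem_range.1 (Finset.union_subset_right hN hm))
    rw [Finsupp.notMem_support_iff.1 e1, Finsupp.notMem_support_iff.1 e2]

variable {V : Type*} [AddCommMonoid V]

/-- The value of a combination. -/
def lsum (F : ℕ → V) (l : List (ℕ × ℕ)) : V := (l.map fun x => x.2 • F x.1).sum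

@[simp] theorem lsum_nil (F : ℕ → V) : lsum F [] = 0 := rfl

@[simp] theorem lsum_cons (F : ℕ → V) (x : ℕ × ℕ) (l : List (ℕ × ℕ)) :
    lsum F (x :: l) = x.2 • F x.1 + lsum F l := by simp [lsum]

theorem lsum_append (F : ℕ → V) (l m : List (ℕ × ℕ)) : lsum F (l ++ m) = lsum F l + lsum F m := by
  simp [lsum]

theorem lsum_scale (F : ℕ → V) {p : ℕ} (hp : ∀ x : V, p • x = 0) :
    ∀ l : List (ℕ × ℕ), lsum F (scaleL p l) = 0
  | [] => rfl
  | (j, w) :: l => by simp [scaleL, lsum_scale F hp l, mul_nsmul', hp]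

theorem lsum_eq (F : ℕ → V) (l : List (ℕ × ℕ)) : lsum F l = (toF l).sum fun j w => w • F j := by
  induction l with
  | nil => simp [toF]
  | cons x l ih =>
    obtain ⟨i, w⟩ := x
    rw [lsum_cons, toF, Finsupp.sum_add_index' (fun _ => by simp) (fun _ a b => add_nsmul _ a b),
      Finsupp.sum_single_index (by simp), ih]

theorem lsum_eq_of_eqMod (F : ℕ → V) {p : ℕ} (hp : ∀ x : V, p • x = 0)
    {l₁ l₂ q₁ q₂ : List (ℕ × ℕ)} (h : eqMod p l₁ l₂ q₁ q₂ = true) : lsum F l₁ = lsum F l₂ := by
  simp only [eqMod, Bool.and_eq_true, Nat.blt_eq, Nat.shiftLeft_eq, one_mul] at h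
  have e : lsum F (l₁ ++ scaleL p q₂) = lsum F (l₂ ++ scaleL p q₁) := by
    rw [lsum_eq, lsum_eq, toF_eq_of_lanes_eq h.1.1 h.1.2 (Nat.eq_of_beq_eq_true h.2)]
  simpa [lsum_append, lsum_scale F hp] using e

end CfsgLib.AltCent
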