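import Cfsg.Agent.AltCent.Code
import Cfsg.Agent.AltCent.Lanes

/-! # Certificate checker for vanishing of vectors in modules of small alternating groups

A vector `v` is given with the scalars by which a tabulated subgroup `B` acts on it.  A base is a
combination of translates of `v` that is known to vanish; a certificate rewrites translates of bases,
projected by an eigen-projection of a small subgroup `T ≤ B`, into the projected coordinates. -/

set_option autoImplicit false

namespace CfsgLib.AltCent

/-- Lookup in a table of 40-bit entries. -/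
def get (tbl i : ℕ) : ℕ := (tbl >>> (40 * i)) &&& 1099511627775

/-- Lookup in a table of 4-bit scalars. -/
def getW (tw i : ℕ) : ℕ := (tw >>> (4 * i)) &&& 15

/-- A table of translates together with a weighted list of its entries. -/
structure Base where
  tbl : ℕ
  cnt : ℕ
  pts : List (ℕ × ℕ)

/-- One translated base with coefficient and normalisation witnesses. -/
structure Term where
  word : List ℕ
  x : ℕ
  base : ℕ
  coef : ℕ
  items : List (ℕ × ℕ × ℕ)

/-- The data of a subgroup table acting by scalars. -/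
structure Grp where
  tbl : ℕ
  wts : ℕ
  cnt : ℕ

section Functions

/-- Breadth-first witness that a table consists of products of generators with matching scalars. -/
def actsOK (p : ℕ) (gens : List (ℕ × ℕ)) (B : Grp) : ℕ → List (ℕ × ℕ) → Bool
  | i, [] => Nat.beq i B.cnt
  | i, (par, k) :: l =>
    Nat.blt par i && Nat.blt k gens.length &&
      Nat.beq (get B.tbl i) (comp (gens.getD k (0, 0)).1 (get B.tbl par)) &&
      Nat.beq (getW B.wts i % p) ((gens.getD k (0, 0)).2 * getW B.wts par % p) &&
      actsOK p gens B (i + 1) l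

/-- The entries of a table are codes of the given products of three-cycles. -/
def repsOK (n : ℕ) [NeZero n] (tbl : ℕ) : ℕ → List (List ℕ) → Bool
  | _, [] => true
  | i, w :: l => Nat.beq (code ((elemOf (n := n) w : alternatingGroup (Fin n)) : Equiv.Perm (Fin n)))
      (get tbl i) && repsOK n tbl (i + 1) l

/-- Normalisation of the image of a base under one element, inside the same table. -/
def imgOK (a : ℕ) (b : Base) (B : Grp) : List (ℕ × ℕ) → List (ℕ × ℕ) → Bool
  | [], [] => true
  | (j, _) :: l, (j', hi) :: m =>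
    Nat.blt j b.cnt && Nat.blt j' b.cnt && Nat.blt hi B.cnt &&
      Nat.beq (comp a (get b.tbl j)) (comp (get b.tbl j') (get B.tbl hi)) && imgOK a b B l m
  | _, _ => false

/-- The image combination. -/
def imgPairs (p : ℕ) (B : Grp) : List (ℕ × ℕ) → List (ℕ × ℕ) → List (ℕ × ℕ)
  | (_, w) :: l, (j', hi) :: m => (j', w * getW B.wts hi % p) :: imgPairs p B l m
  | _, _ => []

/-- The base is an eigenvector of `a` for the scalar `s`. -/
def eigenOK (p a s : ℕ) (b : Base) (B : Grp) (items q₁ q₂ : List (ℕ × ℕ)) : Bool :=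
  imgOK a b B b.pts items && eqMod p (imgPairs p B b.pts items) (scaleL s b.pts) q₁ q₂

/-- Normalisation of one translated base. -/
def itemsOK (x : ℕ) (b : Base) (tR cR : ℕ) (T B : Grp) :
    List (ℕ × ℕ) → List (ℕ × ℕ × ℕ) → Bool
  | [], [] => true
  | (j, _) :: l, (o, hi, ti) :: m =>
    Nat.blt j b.cnt && Nat.blt o cR && Nat.blt hi B.cnt && Nat.blt ti T.cnt &&
      Nat.beq (comp x (get b.tbl j)) (comp (comp (get T.tbl ti) (get tR o)) (get B.tbl hi)) &&
      itemsOK x b tR cR T B l m
  | _, _ => false

/-- The projected combination of one translated base. -/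
def itemPairs (p c : ℕ) (T B : Grp) : List (ℕ × ℕ) → List (ℕ × ℕ × ℕ) → List (ℕ × ℕ)
  | (_, w) :: l, (o, hi, ti) :: m =>
    (o, c * w * getW B.wts hi * getW T.wts ti % p) :: itemPairs p c T B l m
  | _, _ => []

/-- Check a list of terms. -/
def termsOK (n : ℕ) [NeZero n] (bases : List Base) (tR cR : ℕ) (T B : Grp) : List Term → Bool
  | [] => true
  | t :: l =>
    Nat.blt t.base bases.length &&
      Nat.beq (code ((elemOf (n := n) t.word : alternatingGroup (Fin n)) : Equiv.Perm (Fin n))) t.x &&
      itemsOK t.x (bases.getD t.base ⟨0, 0, []⟩) tR cR T B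
        (bases.getD t.base ⟨0, 0, []⟩).pts t.items &&
      termsOK n bases tR cR T B l

/-- The combination of a list of terms. -/
def termPairs (p : ℕ) (bases : List Base) (T B : Grp) : List Term → List (ℕ × ℕ)
  | [] => []
  | t :: l =>
    itemPairs p t.coef T B (bases.getD t.base ⟨0, 0, []⟩).pts t.items ++ termPairs p bases T B l

/-- Multiplication tables showing that the projection transforms by the scalars of `T`. -/
def tauOK (p : ℕ) (T : Grp) (winv : ℕ) (perms : List (List ℕ)) : Bool :=
  Nat.beq perms.length T.cnt &&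
    (List.range T.cnt).all fun ti =>
      (perms.getD ti []).isPerm (List.range T.cnt) &&
        (List.range T.cnt).all fun k =>
          Nat.beq (comp (get T.tbl k) (get T.tbl ti)) (get T.tbl ((perms.getD ti []).getD k 0)) &&
            Nat.beq (getW winv k % p) (getW T.wts ti * getW winv ((perms.getD ti []).getD k 0) % p)

/-- `T` is a part of `B`, and `winv` holds inverse scalars. -/
def subOK (p : ℕ) (T B : Grp) (winv : ℕ) (idx : List ℕ) : Bool :=
  Nat.beq idx.length T.cnt &&
    (List.range T.cnt).all fun k =>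
      Nat.blt (idx.getD k 0) B.cnt && Nat.beq (get T.tbl k) (get B.tbl (idx.getD k 0)) &&
        Nat.beq (getW T.wts k % p) (getW B.wts (idx.getD k 0) % p) &&
        Nat.beq (getW winv k * getW T.wts k % p) (1 % p)

end Functions

section Semantics

variable {n p : ℕ} {V : Type*} [AddCommGroup V] [DistribMulAction (alternatingGroup (Fin n)) V]

theorem nsmul_congr (hp : ∀ x : V, p • x = 0) {a b : ℕ} (h : a % p = b % p) (x : V) :
    a • x = b • x := by
  rw [← Nat.mod_add_div a p, ← Nat.mod_add_div b p, add_nsmul, add_nsmul, mul_nsmul', mul_nsmul',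
    hp, hp, h]

theorem nsmul_mod (hp : ∀ x : V, p • x = 0) (a : ℕ) (x : V) : (a % p) • x = a • x :=
  nsmul_congr hp (Nat.mod_mod _ _) x

theorem el_smul_nsmul (c k : ℕ) (x : V) : el n c • (k • x) = k • (el n c • x) :=
  map_nsmul (DistribSMul.toAddMonoidHom V (el n c)) k x

/-- The translates listed in a table. -/
noncomputable def pt (v : V) (tbl i : ℕ) : V := el n (get tbl i) • v

/-- The value of a base at `v`. -/
noncomputable def bval (v : V) (b : Base) : V := lsum (pt (n := n) v b.tbl) b.pts

/-- Every listed element is an even permutation code. -/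
def GoodTab (n tbl cnt : ℕ) : Prop := ∀ i, i < cnt → Good n (get tbl i)

/-- The table acts on `v` by its scalars. -/
structure Acts (v : V) (B : Grp) : Prop where
  good : GoodTab n B.tbl B.cnt
  smul : ∀ i, i < B.cnt → el n (get B.tbl i) • v = getW B.wts i • v

variable [NeZero n]

theorem good_of_code (w : List ℕ) {c : ℕ}
    (h : code ((elemOf (n := n) w : alternatingGroup (Fin n)) : Equiv.Perm (Fin n)) = c) : Good n c :=
  ⟨_, h⟩

theorem repsOK_spec {tbl : ℕ} : ∀ (l : List (List ℕ)) (i : ℕ), repsOK n tbl i l = true →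
    ∀ j, i ≤ j → j < i + l.length → Good n (get tbl j) := by
  intro l
  induction l with
  | nil => intro i _ j h1 h2; simp only [List.length_nil] at h2; omega
  | cons w l ih =>
    intro i h j h1 h2
    simp only [repsOK, Bool.and_eq_true] at h
    simp only [List.length_cons] at h2
    rcases Nat.eq_or_lt_of_le h1 with rfl | hlt
    · exact good_of_code w (Nat.eq_of_beq_eq_true h.1)
    · exact ih (i + 1) h.2 j hlt (by omega)

theorem goodTab_of_repsOK {tbl cnt : ℕ} (l : List (List ℕ)) (hl : l.length = cnt)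
    (h : repsOK n tbl 0 l = true) : GoodTab n tbl cnt :=
  fun j hj => repsOK_spec l 0 h j (Nat.zero_le _) (by omega)

omit [NeZero n]

theorem acts_of_actsOK (hn : n ≤ 10) (hp : ∀ x : V, p • x = 0) (v : V) (B : Grp)
    (gens : List (ℕ × ℕ)) (hg : ∀ g ∈ gens, Good n g.1 ∧ el n g.1 • v = g.2 • v)
    (l : List (ℕ × ℕ)) (h0 : get B.tbl 0 = 0x9876543210) (w0 : getW B.wts 0 = 1)
    (h : actsOK p gens B 1 l = true) : Acts (n := n) v B := by
  have key : ∀ (l : List (ℕ × ℕ)) (i : ℕ), actsOK p gens B i l = true →
      (∀ j, j < i → Good n (get B.tbl j) ∧ el n (get B.tbl j) • v = getW B.wts j • v) →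
      ∀ j, j < B.cnt → Good n (get B.tbl j) ∧ el n (get B.tbl j) • v = getW B.wts j • v := by
    intro l
    induction l with
    | nil =>
      intro i hi hj j hjc
      simp only [actsOK] at hi
      exact hj j (by rw [Nat.eq_of_beq_eq_true hi]; exact hjc)
    | cons x l ih =>
      intro i hi hj
      obtain ⟨par, k⟩ := x
      simp only [actsOK, Bool.and_eq_true, Nat.blt_eq] at hi
      obtain ⟨⟨⟨⟨hpar, hk⟩, hc⟩, hw⟩, hrest⟩ := hi
      refine ih (i + 1) hrest fun j hjlt => ?_
      rcases Nat.lt_succ_iff_lt_or_eq.1 hjlt with hlt | rfl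
      · exact hj j hlt
      · have hmem : gens.getD k (0, 0) ∈ gens := by
          rw [List.getD_eq_getElem gens (0, 0) hk]
          exact List.getElem_mem hk
        obtain ⟨hgG, hgS⟩ := hg _ hmem
        obtain ⟨hpG, hpS⟩ := hj par hpar
        rw [Nat.eq_of_beq_eq_true hc]
        refine ⟨hgG.comp hn hpG, ?_⟩
        rw [el_comp hn hgG hpG, mul_smul, hpS, el_smul_nsmul, hgS, ← mul_nsmul']
        exact nsmul_congr hp (by rw [Nat.mul_comm, ← Nat.eq_of_beq_eq_true hw]) v
  have h1 := key l 1 h fun j hj => by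
    obtain rfl : j = 0 := by omega
    refine ⟨⟨1, ?_⟩, ?_⟩
    · rw [h0, OneMemClass.coe_one]
      simp [code, dig]
    · rw [el_eq_one hn h0, one_smul, w0, one_nsmul]
  exact ⟨fun i hi => (h1 i hi).1, fun i hi => (h1 i hi).2⟩

variable {v : V} {B : Grp}

theorem imgOK_spec (hn : n ≤ 10) (hp : ∀ x : V, p • x = 0) (hB : Acts (n := n) v B) {a : ℕ}
    (ha : Good n a) {b : Base} (hb : GoodTab n b.tbl b.cnt) :
    ∀ (l m : List (ℕ × ℕ)), imgOK a b B l m = true →
      el n a • lsum (pt (n := n) v b.tbl) l = lsum (pt (n := n) v b.tbl) (imgPairs p B l m)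
  | [], [], _ => by simp [imgPairs]
  | [], _ :: _, h => by simp [imgOK] at h
  | (j, w) :: _, [], h => by simp [imgOK] at h
  | (j, w) :: l, (j', hi) :: m, h => by
    simp only [imgOK, Bool.and_eq_true, Nat.blt_eq] at h
    obtain ⟨⟨⟨⟨hj, hj'⟩, hhi⟩, hc⟩, hrest⟩ := h
    have e : el n a • el n (get b.tbl j) • v = getW B.wts hi • pt (n := n) v b.tbl j' := by
      rw [← mul_smul, ← el_comp hn ha (hb j hj), Nat.eq_of_beq_eq_true hc,
        el_comp hn (hb j' hj') (hB.good hi hhi), mul_smul, hB.smul hi hhi, el_smul_nsmul, pt]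
    simp only [imgPairs, lsum_cons, smul_add, el_smul_nsmul,
      imgOK_spec hn hp hB ha hb l m hrest]
    rw [show el n a • pt (n := n) v b.tbl j = _ from e, nsmul_mod hp, ← mul_nsmul']

theorem lsum_scaleL_eq (F : ℕ → V) (s : ℕ) :
    ∀ l : List (ℕ × ℕ), lsum F (scaleL s l) = s • lsum F l
  | [] => by simp [scaleL]
  | (j, w) :: l => by simp [scaleL, lsum_scaleL_eq F s l, nsmul_add, mul_nsmul']

/-- An eigenvector certificate. -/
theorem eigenOK_spec (hn : n ≤ 10) (hp : ∀ x : V, p • x = 0) (hB : Acts (n := n) v B) {a s : ℕ}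
    (ha : Good n a) {b : Base} (hb : GoodTab n b.tbl b.cnt) {items q₁ q₂ : List (ℕ × ℕ)}
    (h : eigenOK p a s b B items q₁ q₂ = true) :
    el n a • bval (n := n) v b = s • bval (n := n) v b := by
  simp only [eigenOK, Bool.and_eq_true] at h
  rw [bval, imgOK_spec hn hp hB ha hb _ _ h.1, lsum_eq_of_eqMod _ hp h.2, lsum_scaleL_eq]

/-- The eigen-projection. -/
noncomputable def tau (T : Grp) (winv : ℕ) (y : V) : V :=
  ((List.range T.cnt).map fun k => getW winv k • (el n (get T.tbl k) • y)).sum

theorem list_map_sum_add {α : Type*} (l : List α) (f g : α → V) :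
    (l.map fun a => f a + g a).sum = (l.map f).sum + (l.map g).sum := by
  induction l with
  | nil => simp
  | cons a l ih => simp only [List.map_cons, List.sum_cons, ih]; abel

theorem tau_add (T : Grp) (winv : ℕ) (x y : V) :
    tau (n := n) T winv (x + y) = tau (n := n) T winv x + tau (n := n) T winv y := by
  simp only [tau, smul_add, nsmul_add, list_map_sum_add]

theorem tau_zero (T : Grp) (winv : ℕ) : tau (n := n) T winv (0 : V) = 0 := by
  simp [tau]

theorem tau_nsmul (T : Grp) (winv k : ℕ) (x : V) :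
    tau (n := n) T winv (k • x) = k • tau (n := n) T winv x := by
  induction k with
  | zero => simp [tau_zero]
  | succ k ih => rw [succ_nsmul, succ_nsmul, tau_add, ih]

theorem tauOK_spec (hn : n ≤ 10) (hp : ∀ x : V, p • x = 0) {T : Grp}
    (hT : GoodTab n T.tbl T.cnt) {winv : ℕ} {perms : List (List ℕ)}
    (h : tauOK p T winv perms = true) {ti : ℕ} (hti : ti < T.cnt) (y : V) :
    tau (n := n) T winv (el n (get T.tbl ti) • y) = getW T.wts ti • tau (n := n) T winv y := by
  simp only [tauOK, Bool.and_eq_true, List.all_eq_true, List.mem_range] at h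
  obtain ⟨-, h⟩ := h
  obtain ⟨hperm, hk⟩ := h ti hti
  have hP : (perms.getD ti []).Perm (List.range T.cnt) := List.isPerm_iff.1 hperm
  have hlen : (perms.getD ti []).length = T.cnt := by rw [hP.length_eq, List.length_range]
  have hσ : (List.range T.cnt).map (fun k => (perms.getD ti []).getD k 0) = perms.getD ti [] := by
    refine List.ext_getElem (by rw [List.length_map, List.length_range, hlen]) fun k h1 h2 => ?_
    rw [List.getElem_map, List.getElem_range, List.getD_eq_getElem _ _ h2]
  have e : ∀ k ∈ List.range T.cnt, getW winv k • (el n (get T.tbl k) • (el n (get T.tbl ti) • y)) =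
      (fun j => getW T.wts ti • getW winv j • (el n (get T.tbl j) • y))
        ((perms.getD ti []).getD k 0) := by
    intro k hk'
    obtain ⟨hc, hw⟩ := hk k (List.mem_range.1 hk')
    rw [← mul_smul, ← el_comp hn (hT k (List.mem_range.1 hk')) (hT ti hti),
      Nat.eq_of_beq_eq_true hc]
    simp only [← mul_nsmul']
    exact nsmul_congr hp (Nat.eq_of_beq_eq_true hw) _
  rw [tau, List.map_congr_left e,
    ← Function.comp_def (fun j => getW T.wts ti • getW winv j • (el n (get T.tbl j) • y))
      (fun k => (perms.getD ti []).getD k 0), ← List.map_map, hσ, (hP.map _).sum_eq, tau]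
  induction List.range T.cnt with
  | nil => simp
  | cons a l ih => simp [ih]

/-- The projected coordinates. -/
noncomputable def coord (v : V) (tR : ℕ) (T : Grp) (winv o : ℕ) : V :=
  tau (n := n) T winv (el n (get tR o) • v)

theorem itemsOK_spec (hn : n ≤ 10) (hp : ∀ x : V, p • x = 0) (hB : Acts (n := n) v B) {T : Grp}
    (hT : GoodTab n T.tbl T.cnt) {winv : ℕ} {perms : List (List ℕ)}
    (hτ : tauOK p T winv perms = true) {tR cR : ℕ} (hR : GoodTab n tR cR) {x : ℕ} (hx : Good n x)
    {b : Base} (hb : GoodTab n b.tbl b.cnt) (c : ℕ) :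
    ∀ (l : List (ℕ × ℕ)) (m : List (ℕ × ℕ × ℕ)), itemsOK x b tR cR T B l m = true →
      lsum (coord (n := n) v tR T winv) (itemPairs p c T B l m) =
        c • tau (n := n) T winv (el n x • lsum (pt (n := n) v b.tbl) l)
  | [], [], _ => by simp [itemPairs, tau_zero]
  | [], _ :: _, h => by simp [itemsOK] at h
  | (j, w) :: _, [], h => by simp [itemsOK] at h
  | (j, w) :: l, (o, hi, ti) :: m, h => by
    simp only [itemsOK, Bool.and_eq_true, Nat.blt_eq] at h
    obtain ⟨⟨⟨⟨⟨hj, ho⟩, hhi⟩, hti⟩, hc⟩, hrest⟩ := h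
    have e : el n x • pt (n := n) v b.tbl j =
        getW B.wts hi • el n (get T.tbl ti) • el n (get tR o) • v := by
      rw [pt, ← mul_smul, ← el_comp hn hx (hb j hj), Nat.eq_of_beq_eq_true hc,
        el_comp hn ((hT ti hti).comp hn (hR o ho)) (hB.good hi hhi), el_comp hn (hT ti hti) (hR o ho),
        mul_smul, hB.smul hi hhi, mul_smul, el_smul_nsmul, el_smul_nsmul]
    simp only [itemPairs, lsum_cons, smul_add, el_smul_nsmul, e, tau_add, tau_nsmul,
      itemsOK_spec hn hp hB hT hτ hR hx hb c l m hrest, tauOK_spec hn hp hT hτ hti]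
    rw [nsmul_mod hp, coord]
    simp only [← mul_nsmul', mul_assoc]

theorem termsOK_spec [NeZero n] (hn : n ≤ 10) (hp : ∀ x : V, p • x = 0) (hB : Acts (n := n) v B)
    {T : Grp} (hT : GoodTab n T.tbl T.cnt) {winv : ℕ} {perms : List (List ℕ)}
    (hτ : tauOK p T winv perms = true) {tR cR : ℕ} (hR : GoodTab n tR cR) {bases : List Base}
    (hbg : ∀ b ∈ bases, GoodTab n b.tbl b.cnt) (hbz : ∀ b ∈ bases, bval (n := n) v b = 0) :
    ∀ ts : List Term, termsOK n bases tR cR T B ts = true →
      lsum (coord (n := n) v tR T winv) (termPairs p bases T B ts) = 0 := by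
  intro ts
  induction ts with
  | nil => intro _; rfl
  | cons t ts ih =>
    intro h
    simp only [termsOK, Bool.and_eq_true, Nat.blt_eq] at h
    obtain ⟨⟨⟨hlt, hw⟩, hitems⟩, hrest⟩ := h
    have hmem : bases.getD t.base ⟨0, 0, []⟩ ∈ bases := by
      rw [List.getD_eq_getElem bases _ hlt]
      exact List.getElem_mem hlt
    rw [termPairs, lsum_append, ih hrest, add_zero,
      itemsOK_spec hn hp hB hT hτ hR (good_of_code t.word (Nat.eq_of_beq_eq_true hw))
        (hbg _ hmem) t.coef _ _ hitems]
    have := hbz _ hmem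
    rw [bval] at this
    rw [this, smul_zero, tau_zero, smul_zero]

theorem termsOK_append [NeZero n] {bases : List Base} {tR cR : ℕ} {T B : Grp} :
    ∀ l m : List Term, termsOK n bases tR cR T B l = true → termsOK n bases tR cR T B m = true →
      termsOK n bases tR cR T B (l ++ m) = true
  | [], _, _, h => h
  | t :: l, m, h, h' => by
    simp only [termsOK, List.cons_append, Bool.and_eq_true] at h ⊢
    exact ⟨h.1, termsOK_append l m h.2 h'⟩

/-- The final step: the projection of `v` is a unit multiple of `v`, so the certificate kills `v`. -/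
theorem eq_zero_of_cert (hn : n ≤ 10) (hp : ∀ x : V, p • x = 0) (hB : Acts (n := n) v B) {T : Grp}
    {winv : ℕ} {idx : List ℕ} (hsub : subOK p T B winv idx = true) (hcop : Nat.Coprime T.cnt p)
    {tR : ℕ} (hR0 : get tR 0 = 0x9876543210) {pairs q₁ q₂ : List (ℕ × ℕ)}
    (hz : lsum (coord (n := n) v tR T winv) pairs = 0)
    (heq : eqMod p pairs [(0, 1)] q₁ q₂ = true) : v = 0 := by
  rw [lsum_eq_of_eqMod _ hp heq, lsum_cons, lsum_nil, add_zero, one_nsmul, coord,
    el_eq_one hn hR0, one_smul] at hz
  simp only [subOK, Bool.and_eq_true, List.all_eq_true, List.mem_range, Nat.blt_eq] at hsub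
  have e : ∀ k ∈ List.range T.cnt, getW winv k • (el n (get T.tbl k) • v) = (fun _ => v) k := by
    intro k hk
    obtain ⟨⟨⟨hidx, hc⟩, hw⟩, hinv⟩ := hsub.2 k (List.mem_range.1 hk)
    rw [Nat.eq_of_beq_eq_true hc, hB.smul _ hidx,
      ← nsmul_congr hp (Nat.eq_of_beq_eq_true hw) v, ← mul_nsmul']
    exact (nsmul_congr hp (by rw [Nat.eq_of_beq_eq_true hinv]) v).trans (one_nsmul v)
  rw [tau, List.map_congr_left e, List.map_const', List.sum_replicate, List.length_range] at hz
  have h1 : addOrderOf v ∣ Nat.gcd T.cnt p :=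
    Nat.dvd_gcd (addOrderOf_dvd_of_nsmul_eq_zero hz) (addOrderOf_dvd_of_nsmul_eq_zero (hp v))
  rw [hcop] at h1
  exact AddMonoid.addOrderOf_eq_one_iff.1 (Nat.dvd_one.1 h1)

end Semantics

end CfsgLib.AltCent
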