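import Mathlib

/-! # Packed codes of permutations of at most ten points

A permutation of `Fin n` (`n ≤ 10`) is coded by a natural number with ten base-16 digits, so that the
kernel composes permutations with arithmetic only. -/

set_option autoImplicit false
set_option maxHeartbeats 400000

namespace CfsgLib.AltCent

/-- The `k`-th base-16 digit. -/
def nib (a k : ℕ) : ℕ := (a >>> (4 * k)) &&& 15

/-- Composition of codes: first `b`, then `a`. -/
def comp (a b : ℕ) : ℕ :=
  nib a (nib b 0) + (nib a (nib b 1) <<< 4) + (nib a (nib b 2) <<< 8) + (nib a (nib b 3) <<< 12) +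
    (nib a (nib b 4) <<< 16) + (nib a (nib b 5) <<< 20) + (nib a (nib b 6) <<< 24) +
    (nib a (nib b 7) <<< 28) + (nib a (nib b 8) <<< 32) + (nib a (nib b 9) <<< 36)

variable {n : ℕ}

/-- The digit at `k`: the image of `k`, or `k` itself beyond the degree. -/
def dig (g : Equiv.Perm (Fin n)) (k : ℕ) : ℕ := if h : k < n then (g ⟨k, h⟩ : ℕ) else k

/-- The code of a permutation. -/
def code (g : Equiv.Perm (Fin n)) : ℕ :=
  dig g 0 + 16 * (dig g 1 + 16 * (dig g 2 + 16 * (dig g 3 + 16 * (dig g 4 + 16 * (dig g 5 +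
    16 * (dig g 6 + 16 * (dig g 7 + 16 * (dig g 8 + 16 * dig g 9))))))))

theorem dig_lt (hn : n ≤ 10) (g : Equiv.Perm (Fin n)) {k : ℕ} (hk : k < 10) : dig g k < 10 := by
  rw [dig]; split
  · exact lt_of_lt_of_le (Fin.isLt _) hn
  · exact hk

theorem dig_mul (g h : Equiv.Perm (Fin n)) (k : ℕ) : dig g (dig h k) = dig (g * h) k := by
  unfold dig
  by_cases hk : k < n
  · simp [hk]
  · simp [hk]

theorem nib_eq (a k : ℕ) : nib a k = a / 16 ^ k % 16 := by
  rw [nib, Nat.shiftRight_eq_div_pow, show (15 : ℕ) = 2 ^ 4 - 1 from rfl,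
    Nat.and_two_pow_sub_one_eq_mod, pow_mul]
  norm_num

theorem nib_zero_add (d r : ℕ) (hd : d < 16) : nib (d + 16 * r) 0 = d := by
  rw [nib_eq, pow_zero, Nat.div_one]; omega

theorem nib_succ_add (d r k : ℕ) (hd : d < 16) : nib (d + 16 * r) (k + 1) = nib r k := by
  rw [nib_eq, nib_eq, pow_succ', ← Nat.div_div_eq_div_mul]
  congr 2; omega

theorem nib_last (d : ℕ) (hd : d < 16) : nib d 0 = d := by
  rw [nib_eq, pow_zero, Nat.div_one]; omega

theorem nib_code (hn : n ≤ 10) (g : Equiv.Perm (Fin n)) {k : ℕ} (hk : k < 10) :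
    nib (code g) k = dig g k := by
  have h0 := dig_lt hn g (k := 0) (by norm_num)
  have h1 := dig_lt hn g (k := 1) (by norm_num)
  have h2 := dig_lt hn g (k := 2) (by norm_num)
  have h3 := dig_lt hn g (k := 3) (by norm_num)
  have h4 := dig_lt hn g (k := 4) (by norm_num)
  have h5 := dig_lt hn g (k := 5) (by norm_num)
  have h6 := dig_lt hn g (k := 6) (by norm_num)
  have h7 := dig_lt hn g (k := 7) (by norm_num)
  have h8 := dig_lt hn g (k := 8) (by norm_num)
  have h9 := dig_lt hn g (k := 9) (by norm_num)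
  rw [code]
  interval_cases k <;>
    simp only [nib_succ_add _ _ _ (show dig g 0 < 16 by omega),
      nib_succ_add _ _ _ (show dig g 1 < 16 by omega), nib_succ_add _ _ _ (show dig g 2 < 16 by omega),
      nib_succ_add _ _ _ (show dig g 3 < 16 by omega), nib_succ_add _ _ _ (show dig g 4 < 16 by omega),
      nib_succ_add _ _ _ (show dig g 5 < 16 by omega), nib_succ_add _ _ _ (show dig g 6 < 16 by omega),
      nib_succ_add _ _ _ (show dig g 7 < 16 by omega), nib_succ_add _ _ _ (show dig g 8 < 16 by omega),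
      nib_zero_add _ _ (show dig g 0 < 16 by omega), nib_zero_add _ _ (show dig g 1 < 16 by omega),
      nib_zero_add _ _ (show dig g 2 < 16 by omega), nib_zero_add _ _ (show dig g 3 < 16 by omega),
      nib_zero_add _ _ (show dig g 4 < 16 by omega), nib_zero_add _ _ (show dig g 5 < 16 by omega),
      nib_zero_add _ _ (show dig g 6 < 16 by omega), nib_zero_add _ _ (show dig g 7 < 16 by omega),
      nib_zero_add _ _ (show dig g 8 < 16 by omega), nib_last _ (show dig g 9 < 16 by omega)]

/-- Assemble ten digits. -/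
theorem pack_eq (f : ℕ → ℕ) :
    f 0 + (f 1 <<< 4) + (f 2 <<< 8) + (f 3 <<< 12) + (f 4 <<< 16) + (f 5 <<< 20) + (f 6 <<< 24) +
      (f 7 <<< 28) + (f 8 <<< 32) + (f 9 <<< 36) =
    f 0 + 16 * (f 1 + 16 * (f 2 + 16 * (f 3 + 16 * (f 4 + 16 * (f 5 + 16 * (f 6 + 16 * (f 7 +
      16 * (f 8 + 16 * f 9)))))))) := by
  simp only [Nat.shiftLeft_eq]
  generalize f 0 = a0
  generalize f 1 = a1
  generalize f 2 = a2
  generalize f 3 = a3
  generalize f 4 = a4
  generalize f 5 = a5
  generalize f 6 = a6
  generalize f 7 = a7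
  generalize f 8 = a8
  generalize f 9 = a9
  omega

theorem comp_congr (a b : ℕ) (f : ℕ → ℕ) (h : ∀ k, k < 10 → nib a (nib b k) = f k) :
    comp a b = f 0 + 16 * (f 1 + 16 * (f 2 + 16 * (f 3 + 16 * (f 4 + 16 * (f 5 + 16 * (f 6 +
      16 * (f 7 + 16 * (f 8 + 16 * f 9)))))))) := by
  rw [← pack_eq f, ← h 0 (by norm_num), ← h 1 (by norm_num), ← h 2 (by norm_num),
    ← h 3 (by norm_num), ← h 4 (by norm_num), ← h 5 (by norm_num), ← h 6 (by norm_num),
    ← h 7 (by norm_num), ← h 8 (by norm_num), ← h 9 (by norm_num)]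
  rfl

theorem comp_code (hn : n ≤ 10) (g h : Equiv.Perm (Fin n)) :
    comp (code g) (code h) = code (g * h) :=
  comp_congr (code g) (code h) (dig (g * h)) fun k hk => by
    rw [nib_code hn h hk, nib_code hn g (dig_lt hn h hk), dig_mul]

theorem code_injective (hn : n ≤ 10) : Function.Injective (code (n := n)) := by
  intro g h e
  refine Equiv.ext fun x => Fin.ext ?_
  have hk : (x : ℕ) < 10 := lt_of_lt_of_le x.isLt hn
  have := congrArg (fun a => nib a (x : ℕ)) e
  simp only [nib_code hn g hk, nib_code hn h hk] at this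
  simpa [dig] using this

/-- The three-cycle on three points, `1` if they are not distinct. -/
def tri (a b c : Fin n) : alternatingGroup (Fin n) :=
  if h : a ≠ b ∧ b ≠ c then
    ⟨Equiv.swap a b * Equiv.swap b c, by
      simp [Equiv.Perm.mem_alternatingGroup, Equiv.Perm.sign_swap h.1, Equiv.Perm.sign_swap h.2]⟩
  else 1

/-- An element from a packed list of triples (12 bits each). -/
def elemOf [NeZero n] : List ℕ → alternatingGroup (Fin n)
  | [] => 1
  | t :: l => tri (Fin.ofNat n (t &&& 15)) (Fin.ofNat n ((t >>> 4) &&& 15))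
      (Fin.ofNat n (t >>> 8)) * elemOf l

/-- The element with a given code, `1` if there is none. -/
noncomputable def el (n c : ℕ) : alternatingGroup (Fin n) := by
  classical
  exact if h : ∃ g : alternatingGroup (Fin n), code (g : Equiv.Perm (Fin n)) = c then h.choose else 1

/-- A number that is the code of an even permutation. -/
def Good (n c : ℕ) : Prop := ∃ g : alternatingGroup (Fin n), code (g : Equiv.Perm (Fin n)) = c

theorem el_code (hn : n ≤ 10) (g : alternatingGroup (Fin n)) : el n (code (g : Equiv.Perm (Fin n))) = g := by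
  rw [el, dif_pos ⟨g, rfl⟩]
  exact Subtype.ext (code_injective hn (Exists.choose_spec (p := fun g' : alternatingGroup (Fin n) =>
    code (g' : Equiv.Perm (Fin n)) = code (g : Equiv.Perm (Fin n))) ⟨g, rfl⟩))

theorem Good.comp (hn : n ≤ 10) {a b : ℕ} (ha : Good n a) (hb : Good n b) :
    Good n (comp a b) := by
  obtain ⟨g, rfl⟩ := ha
  obtain ⟨h, rfl⟩ := hb
  exact ⟨g * h, by rw [comp_code hn, Subgroup.coe_mul]⟩

theorem el_comp (hn : n ≤ 10) {a b : ℕ} (ha : Good n a) (hb : Good n b) :
    el n (CfsgLib.AltCent.comp a b) = el n a * el n b := by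
  obtain ⟨g, rfl⟩ := ha
  obtain ⟨h, rfl⟩ := hb
  rw [comp_code hn, el_code hn, el_code hn, ← Subgroup.coe_mul, el_code hn]

theorem el_one (hn : n ≤ 10) : el n (code (1 : Equiv.Perm (Fin n))) = 1 := by
  simpa using el_code hn (1 : alternatingGroup (Fin n))

theorem el_eq_one (hn : n ≤ 10) {c : ℕ} (h : c = 0x9876543210) : el n c = 1 := by
  have : code (1 : Equiv.Perm (Fin n)) = 0x9876543210 := by
    have e : ∀ k, dig (1 : Equiv.Perm (Fin n)) k = k := fun k => by simp [dig]
    simp only [code, e]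
  rw [h, ← this, el_one hn]

end CfsgLib.AltCent
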