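import Cfsg.Agent.AltCent.Setup
import Cfsg.Agent.AltCent.FiveChain
import Cfsg.Agent.AltCent.FiveT.Main
import Cfsg.Agent.AltCent.FiveS.Main
import Cfsg.Agent.AltCent.FiveS.Mod
import Cfsg.Agent.AltCent.FiveA.Main
import Cfsg.Agent.AltCent.FiveB.Main

/-! # Degree ten in characteristic five -/

set_option autoImplicit false
set_option maxRecDepth 100000

namespace CfsgLib.AltCent

namespace Ten

def c1 : ℕ := 654820000545
def c2 : ℕ := 384523579920
def t1 : ℕ := 654820057920
def t2 : ℕ := 444685627920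
def t4 : ℕ := 578064421920
def sw : ℕ := 288317008245

/-- The subgroup generated by the two five-cycles. -/
def sylow : List ℕ :=
  [384523322145, 384523371570, 384523440195, 384523510020, 384523579920, 436349190945, 436349240370,
    436349308995, 436349378820, 436349448720, 508307718945, 508307768370, 508307836995, 508307906820,
    508307976720, 581524538145, 581524587570, 581524656195, 581524726020, 581524795920, 654820000545,
    654820049970, 654820118595, 654820188420, 654820258320]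

def sylowWords : List (List ℕ) :=
  [[528, 1074, 1893, 2439], [1056, 1073, 1893, 2439], [304, 577, 1893, 2439], [832, 561, 1893, 2439],
    [1893, 2439], [528, 1074, 2421, 2438], [1056, 1073, 2421, 2438], [304, 577, 2421, 2438],
    [832, 561, 2421, 2438], [2421, 2438], [528, 1074, 1669, 1942], [1056, 1073, 1669, 1942],
    [304, 577, 1669, 1942], [832, 561, 1669, 1942], [1669, 1942], [528, 1074, 2197, 1926],
    [1056, 1073, 2197, 1926], [304, 577, 2197, 1926], [832, 561, 2197, 1926], [2197, 1926],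
    [528, 1074], [1056, 1073], [304, 577], [832, 561], []]

theorem sylow_closed : closedOK sylow sylow (5 ^ 1) = true := by decide +kernel
theorem sylow_good : codesOK 10 sylow sylowWords = true := by decide +kernel

theorem elts_good : codesOK 10 [c1, c2, t1, t2, t4, sw]
    [[528, 1074], [1893, 2439], [577, 1074], [1942, 2439], [1057, 1603, 1892, 2199],
      [336, 625, 1170, 1379, 1412]] = true := by decide +kernel

theorem norm_ok : (normOK t1 sylow && normOK t2 sylow && normOK t4 sylow && normOK sw sylow &&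
    sylow.contains c1 && sylow.contains c2 &&
    Nat.beq (comp t1 t1) idCode && Nat.beq (comp t2 t2) idCode && Nat.beq (comp t1 t2) (comp t2 t1) &&
    Nat.beq (comp t4 t4) (comp t1 t2) && Nat.beq (comp t1 t4) (comp t4 t1) &&
    Nat.beq (comp t2 t4) (comp t4 t2) && Nat.beq (comp t1 sw) (comp sw t2) &&
    Nat.beq (comp t2 sw) (comp sw t1)) = true := by decide +kernel

theorem gensT : FiveT.gens = [(c1, 1), (c2, 1), (t1, 1), (t2, 1)] := rfl
theorem gensS : FiveS.gens = [(c1, 1), (c2, 1), (t1, 4), (t2, 4)] := rfl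
theorem gensA : FiveA.gens = [(c1, 1), (c2, 1), (t1, 4), (t2, 1), (t4, 2)] := rfl
theorem gensB : FiveB.gens = [(c1, 1), (c2, 1), (t1, 4), (t2, 1), (t4, 3)] := rfl

end Ten

variable {V : Type*} [AddCommGroup V] [DistribMulAction (alternatingGroup (Fin 10)) V]

/-- The common form of the derived eigenvectors. -/
theorem derive_five (hp : ∀ x : V, 5 • x = 0) {v : V} {B : Grp} (hB : Acts (n := 10) v B) {b : Base}
    (hb : GoodTab 10 b.tbl b.cnt) {gens : List (ℕ × ℕ)} (hgood : ∀ g ∈ gens, Good 10 g.1) {m : _}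
    (hm : gensEigenOK 5 b B gens m = true) :
    ∀ g ∈ gens, el 10 g.1 • bval (n := 10) v b = g.2 • bval (n := 10) v b :=
  gensEigenOK_spec (by norm_num) hp hB hb _ _ hm hgood

/-- An involution splits a vector into an eigenvector. -/
theorem exists_eigen (hp : ∀ x : V, 5 • x = 0) {g : ℕ} (hg : Good 10 g) (hgg : comp g g = idCode)
    {v : V} (hv : v ≠ 0) :
    ∃ e, (e = 1 ∨ e = 4) ∧ v + e • el 10 g • v ≠ 0 ∧
      el 10 g • (v + e • el 10 g • v) = e • (v + e • el 10 g • v) := by
  have hid : el 10 g • el 10 g • v = v := by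
    rw [smul_smul, el_mul_of_comp (by norm_num) hg hg hg hg rfl]
    obtain ⟨x, rfl⟩ := hg
    rw [el_code (by norm_num)]
    rw [comp_code (by norm_num), ← Subgroup.coe_mul] at hgg
    rw [eq_one_of_code (by norm_num) hgg, one_smul]
  have key : ∀ e, (e = 1 ∨ e = 4) →
      el 10 g • (v + e • el 10 g • v) = e • (v + e • el 10 g • v) := by
    intro e he
    rw [smul_add, smul_comm, hid, smul_add, smul_smul]
    have h5 := hp (el 10 g • v)
    rcases he with rfl | rfl
    · rw [mul_one, one_nsmul, one_nsmul, add_comm]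
    · rw [show (4 * 4) = 3 * 5 + 1 by norm_num, add_nsmul, mul_nsmul', h5, smul_zero, zero_add,
        one_nsmul, add_comm]
  by_cases h1 : v + 1 • el 10 g • v = 0
  · refine ⟨4, Or.inr rfl, fun h4 => hv ?_, key 4 (Or.inr rfl)⟩
    calc v = 3 • ((v + 1 • el 10 g • v) + (v + 4 • el 10 g • v)) - 5 • v -
          3 • (5 • (el 10 g • v)) := by abel
      _ = 0 := by rw [h1, h4, hp, hp]; simp
  · exact ⟨1, Or.inl rfl, h1, key 1 (Or.inl rfl)⟩

/-- The case where both involutions act by `-1`. -/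
theorem eq_zero_five_S (hp : ∀ x : V, 5 • x = 0) (hX : NoFix 10 V) (v : V)
    (hv : ∀ g ∈ FiveS.gens, el 10 g.1 • v = g.2 • v) : v = 0 := by
  have hn : (10 : ℕ) ≤ 10 := le_rfl
  have hgS : ∀ g ∈ FiveS.gens, Good 10 g.1 := fun g hg =>
    codesOK_spec _ _ (show codesOK 10 (FiveS.gens.map Prod.fst) FiveS.genWords = true by decide +kernel) _
      (List.mem_map_of_mem hg)
  have hb0 : GoodTab 10 FiveS.base0.tbl FiveS.base0.cnt :=
    goodTab_of_repsOK FiveS.baseWords0 rfl FiveS.baseWords0_ok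
  have hb1 : GoodTab 10 FiveS.base1.tbl FiveS.base1.cnt :=
    goodTab_of_repsOK FiveS.baseWords1 rfl FiveS.baseWords1_ok
  have hb2 : GoodTab 10 FiveS.base2.tbl FiveS.base2.cnt :=
    goodTab_of_repsOK FiveS.baseWords2 rfl FiveS.baseWords2_ok
  have full : ∀ w : V, (∀ g ∈ FiveS.gens, el 10 g.1 • w = g.2 • w) →
      bval (n := 10) w FiveS.base0 = 0 → bval (n := 10) w FiveS.base1 = 0 → w = 0 := by
    intro w hw h0 h1
    have hB := FiveS.acts hp w hw
    refine FiveS.eq_zero hp hX w hw h0 h1 ?_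
    have hz := fun l => combPairs_zero (l := l) hn hp hB (tbl := FiveS.base2.tbl)
      (bs := [FiveS.base0, FiveS.base1])
      (fun b hb => by
        simp only [List.mem_cons, List.not_mem_nil, or_false] at hb
        rcases hb with rfl | rfl
        · exact FiveS.common_ok.1
        · exact FiveS.common_ok.2)
      (fun b hb => by
        simp only [List.mem_cons, List.not_mem_nil, or_false] at hb
        rcases hb with rfl | rfl
        · exact hb0
        · exact hb1)
      (fun b hb => by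
        simp only [List.mem_cons, List.not_mem_nil, or_false] at hb
        rcases hb with rfl | rfl
        · exact h0
        · exact h1)
    have moda := FiveS.mod_a_ok
    have modb := FiveS.mod_b_ok
    simp only [Bool.and_eq_true] at moda modb
    have hgood := good_of_pairOK FiveS.pair_ok
    refine eq_zero_of_pair hn hX FiveS.pair_ok _ ?_ ?_
    · rw [bval, imgOK_spec hn hp hB hgood.1 hb2 _ _ moda.1.1.1,
        lsum_eq_of_eqMod _ hp moda.2, lsum_append,
        hz _ moda.1.1.2 (wordsOK_spec _ _ moda.1.2), add_zero]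
    · rw [bval, imgOK_spec hn hp hB hgood.2 hb2 _ _ modb.1.1.1,
        lsum_eq_of_eqMod _ hp modb.2, lsum_append,
        hz _ modb.1.1.2 (wordsOK_spec _ _ modb.1.2), add_zero]
  have second : ∀ w : V, (∀ g ∈ FiveS.gens, el 10 g.1 • w = g.2 • w) →
      bval (n := 10) w FiveS.base0 = 0 → w = 0 := by
    intro w hw h0
    have hB := FiveS.acts hp w hw
    refine full w hw h0 ?_
    refine full _ (derive_five hp hB hb1 hgS FiveChain.eigS1_ok) ?_ ?_
    · have h := FiveChain.mixS_ok
      simp only [Bool.and_eq_true] at h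
      obtain ⟨⟨⟨⟨⟨hc1, hw1⟩, hi1⟩, hc2⟩, hw2⟩, heq⟩ := h
      rw [bval_bval hn hp hB rfl hb1 hc1 (wordsOK_spec _ _ hw1) hi1 FiveChain.mixS_map,
        lsum_eq_of_eqMod _ hp heq,
        combPairs_zero hn hp hB (bs := [FiveS.base0]) (fun b hb => by
          rw [List.mem_singleton.1 hb]; rfl)
          (fun b hb => by rw [List.mem_singleton.1 hb]; exact hb0)
          (fun b hb => by rw [List.mem_singleton.1 hb]; exact h0) hc2 (wordsOK_spec _ _ hw2)]
    · have h := FiveChain.sqS1_ok
      simp only [Bool.and_eq_true] at h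
      obtain ⟨⟨⟨hc, hw⟩, hi⟩, heq⟩ := h
      rw [bval_bval hn hp hB rfl hb1 hc (wordsOK_spec _ _ hw) hi FiveChain.sqS1_map,
        lsum_eq_of_eqMod _ hp heq, lsum_nil]
  have hB := FiveS.acts hp v hv
  refine second v hv (second _ (derive_five hp hB hb0 hgS FiveChain.eigS0_ok) ?_)
  have h := FiveChain.sqS0_ok
  simp only [Bool.and_eq_true] at h
  obtain ⟨⟨⟨hc, hw⟩, hi⟩, heq⟩ := h
  rw [bval_bval hn hp hB rfl hb0 hc (wordsOK_spec _ _ hw) hi FiveChain.sqS0_map,
    lsum_eq_of_eqMod _ hp heq, lsum_nil]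

theorem eq_zero_five_A (hp : ∀ x : V, 5 • x = 0) (hX : NoFix 10 V) (v : V)
    (hv : ∀ g ∈ FiveA.gens, el 10 g.1 • v = g.2 • v) : v = 0 := by
  have hB := FiveA.acts hp v hv
  refine FiveA.eq_zero hp hX v hv ?_
  have hb : GoodTab 10 FiveChain.wideA.tbl FiveChain.wideA.cnt :=
    goodTab_of_repsOK FiveChain.wideAWords rfl FiveChain.wideA_good
  rw [← bval_congr v FiveChain.wideA_agree.1 FiveChain.wideA_agree.2]
  refine FiveB.eq_zero hp hX _ (derive_five hp hB hb (fun g hg => codesOK_spec _ _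
    (show codesOK 10 (FiveB.gens.map Prod.fst) FiveB.genWords = true by decide +kernel) _
      (List.mem_map_of_mem hg)) FiveChain.eigA_ok) ?_
  have h := FiveChain.sqA_ok
  simp only [Bool.and_eq_true] at h
  obtain ⟨⟨⟨hc, hw⟩, hi⟩, heq⟩ := h
  rw [bval_bval le_rfl hp hB rfl hb hc (wordsOK_spec _ _ hw) hi FiveChain.sqA_map,
    lsum_eq_of_eqMod _ hp heq, lsum_nil]

theorem eq_zero_five_B (hp : ∀ x : V, 5 • x = 0) (hX : NoFix 10 V) (v : V)
    (hv : ∀ g ∈ FiveB.gens, el 10 g.1 • v = g.2 • v) : v = 0 := by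
  have hB := FiveB.acts hp v hv
  refine FiveB.eq_zero hp hX v hv ?_
  have hb : GoodTab 10 FiveChain.wideB.tbl FiveChain.wideB.cnt :=
    goodTab_of_repsOK FiveChain.wideBWords rfl FiveChain.wideB_good
  rw [← bval_congr v FiveChain.wideB_agree.1 FiveChain.wideB_agree.2]
  refine FiveA.eq_zero hp hX _ (derive_five hp hB hb (fun g hg => codesOK_spec _ _
    (show codesOK 10 (FiveA.gens.map Prod.fst) FiveA.genWords = true by decide +kernel) _
      (List.mem_map_of_mem hg)) FiveChain.eigB_ok) ?_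
  have h := FiveChain.sqB_ok
  simp only [Bool.and_eq_true] at h
  obtain ⟨⟨⟨hc, hw⟩, hi⟩, heq⟩ := h
  rw [bval_bval le_rfl hp hB rfl hb hc (wordsOK_spec _ _ hw) hi FiveChain.sqB_map,
    lsum_eq_of_eqMod _ hp heq, lsum_nil]

open Ten in
/-- No faithful enough module exists. -/
theorem eq_zero_five [Finite V] (hp : ∀ x : V, 5 • x = 0) (hX : NoFix 10 V) (x : V) : x = 0 := by
  haveI : Fact (Nat.Prime 5) := ⟨by norm_num⟩
  have hn : (10 : ℕ) ≤ 10 := le_rfl
  have hgd := codesOK_spec _ _ elts_good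
  simp only [List.mem_cons, List.not_mem_nil, or_false, forall_eq_or_imp, forall_eq] at hgd
  obtain ⟨-, -, gt1, gt2, gt4, gsw⟩ := hgd
  have hno := norm_ok
  simp only [Bool.and_eq_true, List.contains_iff_mem] at hno
  obtain ⟨⟨⟨⟨⟨⟨⟨⟨⟨⟨⟨⟨⟨n1, n2⟩, n4⟩, ns⟩, m1⟩, m2⟩, s1⟩, s2⟩, k12⟩, s4⟩, k14⟩, k24⟩, j1⟩, j2⟩ := hno
  have hsy := codesOK_spec _ _ sylow_good
  -- adding a translate keeps fixedness and commuting eigenvalues
  have keep : ∀ {g : ℕ} (_ : Good 10 g) (_ : normOK g sylow = true) (e : ℕ) {v : V},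
      FixedBy 10 sylow v → FixedBy 10 sylow (v + e • el 10 g • v) := by
    intro g hg hN e v hv c hc
    rw [smul_add, smul_comm, hv c hc, fixedBy_smul hn hg hsy hN hv c hc]
  have keepEig : ∀ {g h : ℕ} (_ : Good 10 g) (_ : Good 10 h) (_ : comp h g = comp g h) (e w : ℕ) {v : V},
      el 10 h • v = w • v → el 10 h • (v + e • el 10 g • v) = w • (v + e • el 10 g • v) := by
    intro g h hg hh hc e w v hv
    rw [smul_add, smul_comm, hv, eigen_conj hn hh hg hh hc hv, smul_add, smul_comm e w]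
  have four_one : ∀ v : V, FixedBy 10 sylow v → el 10 t1 • v = 4 • v → el 10 t2 • v = 1 • v →
      v = 0 := by
    intro v hv h1 h2
    have h44 : el 10 t4 • el 10 t4 • v = 4 • v := by
      rw [smul_smul, el_mul_of_comp hn gt4 gt4 gt1 gt2 (Nat.eq_of_beq_eq_true s4), mul_smul, h2,
        one_nsmul, h1]
    by_cases h3 : el 10 t4 • v + 2 • v = 0
    · refine eq_zero_five_B hp hX v ?_
      rw [gensB]
      simp only [List.mem_cons, List.not_mem_nil, or_false, forall_eq_or_imp, forall_eq, one_nsmul]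
      refine ⟨hv _ m1, hv _ m2, h1, by rw [h2, one_nsmul], ?_⟩
      calc el 10 t4 • v = (el 10 t4 • v + 2 • v) + 3 • v := by
            rw [add_assoc, ← add_nsmul, show (2 + 3 : ℕ) = 5 from rfl, hp, add_zero]
        _ = 3 • v := by rw [h3, zero_add]
    · exfalso
      refine h3 (eq_zero_five_A hp hX _ ?_)
      rw [gensA]
      simp only [List.mem_cons, List.not_mem_nil, or_false, forall_eq_or_imp, forall_eq, one_nsmul]
      have hf : FixedBy 10 sylow (el 10 t4 • v + 2 • v) := fun c hc => by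
        rw [smul_add, fixedBy_smul hn gt4 hsy n4 hv c hc, smul_comm, hv c hc]
      refine ⟨hf _ m1, hf _ m2, ?_, ?_, ?_⟩
      · rw [smul_add, eigen_conj hn gt1 gt4 gt1 (Nat.eq_of_beq_eq_true k14) h1,
          smul_comm (el 10 t1) (2 : ℕ) v, h1, smul_add, smul_comm (2 : ℕ) (4 : ℕ) v]
      · rw [smul_add, eigen_conj hn gt2 gt4 gt2 (Nat.eq_of_beq_eq_true k24) h2,
          smul_comm (el 10 t2) (2 : ℕ) v, h2, one_nsmul, one_nsmul]
      · rw [smul_add, h44, smul_comm (el 10 t4) (2 : ℕ) v, smul_add, smul_smul (2 : ℕ) (2 : ℕ) v,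
          show (2 * 2 : ℕ) = 4 from rfl, add_comm]
  by_contra hx
  obtain ⟨v, hv0, hv⟩ := exists_fixed (n := 10) hn hp hx sylow_closed hsy
  obtain ⟨e, he, hne, hev⟩ := exists_eigen hp gt1 (Nat.eq_of_beq_eq_true s1) hv0
  have hv' := keep gt1 n1 e hv
  obtain ⟨d, hd, hne2, hdv⟩ := exists_eigen hp gt2 (Nat.eq_of_beq_eq_true s2) hne
  set w := (v + e • el 10 t1 • v) + d • el 10 t2 • (v + e • el 10 t1 • v) with hwdef
  have hw : FixedBy 10 sylow w := keep gt2 n2 d hv'
  have hw1 : el 10 t1 • w = e • w := keepEig gt2 gt1 (Nat.eq_of_beq_eq_true k12) d e hev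
  refine hne2 ?_
  rcases he with rfl | rfl <;> rcases hd with rfl | rfl
  · refine FiveT.eq_zero hp hX w ?_
    rw [gensT]
    simp only [List.mem_cons, List.not_mem_nil, or_false, forall_eq_or_imp, forall_eq]
    exact ⟨by rw [one_nsmul]; exact hw _ m1, by rw [one_nsmul]; exact hw _ m2, hw1, hdv⟩
  · refine (smul_eq_zero_iff_eq (el 10 sw)).1 (four_one _ (fixedBy_smul hn gsw hsy ns hw) ?_ ?_)
    · exact eigen_conj hn gt1 gsw gt2 (Nat.eq_of_beq_eq_true j1) hdv
    · exact eigen_conj hn gt2 gsw gt1 (Nat.eq_of_beq_eq_true j2) hw1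
  · exact four_one _ hw hw1 hdv
  · refine eq_zero_five_S hp hX w ?_
    rw [gensS]
    simp only [List.mem_cons, List.not_mem_nil, or_false, forall_eq_or_imp, forall_eq]
    exact ⟨by rw [one_nsmul]; exact hw _ m1, by rw [one_nsmul]; exact hw _ m2, hw1, hdv⟩

end CfsgLib.AltCent
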