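import Cfsg.Agent.AltCent.Checker

/-! # Vectors fixed by a pair generating a non-soluble group

Bases fixed by two elements `a`, `b` with `a² = b³ = 1` and `(ab)⁵ = 1` or `(ab)⁷ = 1` vanish in the
modules under consideration, where no nonzero vector has a non-soluble stabiliser. -/

set_option autoImplicit false

namespace CfsgLib.AltCent

/-- No nonzero vector is fixed by a `(2,3,5)` or `(2,3,7)` pair. -/
def NoFix (n : ℕ) (V : Type*) [AddCommGroup V] [DistribMulAction (alternatingGroup (Fin n)) V] : Prop :=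
  ∀ a b : alternatingGroup (Fin n), a ^ 2 = 1 → b ^ 3 = 1 → ((a * b) ^ 5 = 1 ∨ (a * b) ^ 7 = 1) →
    a ≠ 1 → ∀ w : V, a • w = w → b • w = w → w = 0

/-- The code of the identity. -/
def idCode : ℕ := 0x9876543210

/-- Iterated composition. -/
def compPow (c : ℕ) : ℕ → ℕ
  | 0 => idCode
  | k + 1 => comp (compPow c k) c

/-- The pair conditions on codes and words. -/
def pairOK (n : ℕ) [NeZero n] (wa wb : List ℕ) (a b : ℕ) : Bool :=
  Nat.beq (code ((elemOf (n := n) wa : alternatingGroup (Fin n)) : Equiv.Perm (Fin n))) a &&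
    Nat.beq (code ((elemOf (n := n) wb : alternatingGroup (Fin n)) : Equiv.Perm (Fin n))) b &&
    Nat.beq (compPow a 2) idCode && Nat.beq (compPow b 3) idCode &&
    (Nat.beq (compPow (comp a b) 5) idCode || Nat.beq (compPow (comp a b) 7) idCode) &&
    !(Nat.beq a idCode)

variable {n p : ℕ}

theorem code_one : code (1 : Equiv.Perm (Fin n)) = idCode := by
  have e : ∀ k, dig (1 : Equiv.Perm (Fin n)) k = k := fun k => by simp [dig]
  simp only [code, e, idCode]

theorem compPow_code (hn : n ≤ 10) (g : alternatingGroup (Fin n)) :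
    ∀ k, compPow (code (g : Equiv.Perm (Fin n))) k =
      code ((g ^ k : alternatingGroup (Fin n)) : Equiv.Perm (Fin n))
  | 0 => by rw [pow_zero, OneMemClass.coe_one, code_one]; rfl
  | k + 1 => by rw [compPow, compPow_code hn g k, comp_code hn, ← Subgroup.coe_mul, pow_succ]

theorem eq_one_of_code (hn : n ≤ 10) {g : alternatingGroup (Fin n)}
    (h : code (g : Equiv.Perm (Fin n)) = idCode) : g = 1 :=
  Subtype.ext (code_injective hn (by rw [h, OneMemClass.coe_one, code_one]))

variable [NeZero n] {V : Type*} [AddCommGroup V] [DistribMulAction (alternatingGroup (Fin n)) V]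

theorem good_of_pairOK {wa wb : List ℕ} {a b : ℕ} (h : pairOK n wa wb a b = true) :
    Good n a ∧ Good n b := by
  simp only [pairOK, Bool.and_eq_true] at h
  exact ⟨good_of_code wa (Nat.eq_of_beq_eq_true h.1.1.1.1.1),
    good_of_code wb (Nat.eq_of_beq_eq_true h.1.1.1.1.2)⟩

theorem eq_zero_of_pair (hn : n ≤ 10) (hX : NoFix n V) {wa wb : List ℕ} {a b : ℕ}
    (h : pairOK n wa wb a b = true) (w : V) (ha : el n a • w = w) (hb : el n b • w = w) : w = 0 := by
  simp only [pairOK, Bool.and_eq_true, Bool.or_eq_true, Bool.not_eq_true'] at h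
  obtain ⟨⟨⟨⟨⟨hwa, hwb⟩, h2⟩, h3⟩, h57⟩, hne⟩ := h
  have ea : el n a = elemOf wa := by rw [← Nat.eq_of_beq_eq_true hwa, el_code hn]
  have eb : el n b = elemOf wb := by rw [← Nat.eq_of_beq_eq_true hwb, el_code hn]
  rw [← Nat.eq_of_beq_eq_true hwa] at h2 h57 hne
  rw [← Nat.eq_of_beq_eq_true hwb] at h3 h57
  rw [comp_code hn, ← Subgroup.coe_mul] at h57
  rw [ea] at ha
  rw [eb] at hb
  refine hX _ _ (eq_one_of_code hn ?_) (eq_one_of_code hn ?_) (h57.imp ?_ ?_) ?_ w ha hb
  · rw [← compPow_code hn]; exact Nat.eq_of_beq_eq_true h2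
  · rw [← compPow_code hn]; exact Nat.eq_of_beq_eq_true h3
  · exact fun e => eq_one_of_code hn (by rw [← compPow_code hn]; exact Nat.eq_of_beq_eq_true e)
  · exact fun e => eq_one_of_code hn (by rw [← compPow_code hn]; exact Nat.eq_of_beq_eq_true e)
  · intro e
    rw [e, OneMemClass.coe_one, code_one] at hne
    simp [idCode] at hne

/-- A fixed base vanishes. -/
theorem bval_eq_zero_of_fixed (hn : n ≤ 10) (hp : ∀ x : V, p • x = 0) (hX : NoFix n V) {v : V}
    {B : Grp} (hB : Acts (n := n) v B) {wa wb : List ℕ} {a b : ℕ}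
    (h : pairOK n wa wb a b = true) {bs : Base} (hbs : GoodTab n bs.tbl bs.cnt)
    {ia ib qa qa' qb qb' : List (ℕ × ℕ)} (ha : eigenOK p a 1 bs B ia qa qa' = true)
    (hb : eigenOK p b 1 bs B ib qb qb' = true) : bval (n := n) v bs = 0 := by
  refine eq_zero_of_pair hn hX h _ ?_ ?_
  · rw [eigenOK_spec hn hp hB (good_of_pairOK h).1 hbs ha, one_nsmul]
  · rw [eigenOK_spec hn hp hB (good_of_pairOK h).2 hbs hb, one_nsmul]

/-- Data showing that a base is fixed by a pair. -/
structure Fix where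
  wa : List ℕ
  wb : List ℕ
  a : ℕ
  b : ℕ
  words : List (List ℕ)
  base : Base
  ia : List (ℕ × ℕ)
  ib : List (ℕ × ℕ)
  qa : List (ℕ × ℕ) × List (ℕ × ℕ)
  qb : List (ℕ × ℕ) × List (ℕ × ℕ)

/-- Check a list of fixed bases. -/
def fixesOK (n p : ℕ) [NeZero n] (B : Grp) : List Fix → Bool
  | [] => true
  | f :: l =>
    Nat.beq f.words.length f.base.cnt && repsOK n f.base.tbl 0 f.words &&
      pairOK n f.wa f.wb f.a f.b && eigenOK p f.a 1 f.base B f.ia f.qa.1 f.qa.2 &&
      eigenOK p f.b 1 f.base B f.ib f.qb.1 f.qb.2 && fixesOK n p B l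

theorem fixesOK_spec (hn : n ≤ 10) (hp : ∀ x : V, p • x = 0) (hX : NoFix n V) {v : V} {B : Grp}
    (hB : Acts (n := n) v B) : ∀ l : List Fix, fixesOK n p B l = true →
      ∀ b ∈ l.map Fix.base, GoodTab n b.tbl b.cnt ∧ bval (n := n) v b = 0 := by
  intro l
  induction l with
  | nil => intro _ b hb; simp at hb
  | cons f l ih =>
    intro h b hb
    simp only [fixesOK, Bool.and_eq_true] at h
    obtain ⟨⟨⟨⟨⟨hl, hr⟩, hpair⟩, hea⟩, heb⟩, hrest⟩ := h
    rcases List.mem_cons.1 hb with rfl | hb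
    · have hg := goodTab_of_repsOK f.words (Nat.eq_of_beq_eq_true hl) hr
      exact ⟨hg, bval_eq_zero_of_fixed hn hp hX hB hpair hg hea heb⟩
    · exact ih hrest b hb

/-- The base `1·v + (p - 1)·v`, which vanishes identically. -/
def trivBase (p : ℕ) : Base := ⟨idCode, 1, [(0, 1), (0, p - 1)]⟩

omit [NeZero n] in
theorem trivBase_spec (hn : n ≤ 10) (hp : ∀ x : V, p • x = 0) (hp1 : 1 ≤ p) (v : V) :
    GoodTab n (trivBase p).tbl (trivBase p).cnt ∧ bval (n := n) v (trivBase p) = 0 := by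
  have e : get (trivBase p).tbl 0 = idCode := by simp [get, trivBase, idCode]
  refine ⟨fun i hi => ?_, ?_⟩
  · obtain rfl : i = 0 := by simp [trivBase] at hi; omega
    exact ⟨1, by rw [e, OneMemClass.coe_one, code_one]⟩
  · simp only [bval, trivBase, lsum_cons, lsum_nil, add_zero]
    rw [← add_nsmul, show 1 + (p - 1) = p by omega, hp]

/-- Check translated bases normalised inside one common table. -/
def combOK (p : ℕ) (B : Grp) (bs : List Base) :
    List (ℕ × ℕ × ℕ × List (ℕ × ℕ)) → Bool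
  | [] => true
  | (g, i, _, items) :: l =>
    Nat.blt i bs.length &&
      imgOK g (bs.getD i ⟨0, 0, []⟩) B (bs.getD i ⟨0, 0, []⟩).pts items && combOK p B bs l

/-- The combination of translated bases. -/
def combPairs (p : ℕ) (B : Grp) (bs : List Base) :
    List (ℕ × ℕ × ℕ × List (ℕ × ℕ)) → List (ℕ × ℕ)
  | [] => []
  | (_, i, c, items) :: l =>
    scaleL c (imgPairs p B (bs.getD i ⟨0, 0, []⟩).pts items) ++ combPairs p B bs l

omit [NeZero n] in
theorem combOK_spec (hn : n ≤ 10) (hp : ∀ x : V, p • x = 0) {v : V} {B : Grp}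
    (hB : Acts (n := n) v B) {tbl : ℕ} {bs : List Base} (htbl : ∀ b ∈ bs, b.tbl = tbl)
    (hg : ∀ b ∈ bs, GoodTab n b.tbl b.cnt) :
    ∀ l : List (ℕ × ℕ × ℕ × List (ℕ × ℕ)), combOK p B bs l = true → (∀ x ∈ l, Good n x.1) →
      lsum (pt (n := n) v tbl) (combPairs p B bs l) =
        (l.map fun x => x.2.2.1 • (el n x.1 • bval (n := n) v (bs.getD x.2.1 ⟨0, 0, []⟩))).sum := by
  intro l
  induction l with
  | nil => intro _ _; rfl
  | cons x l ih =>
    intro h hgood
    obtain ⟨g, i, c, items⟩ := x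
    simp only [combOK, Bool.and_eq_true, Nat.blt_eq] at h
    obtain ⟨⟨hi, himg⟩, hrest⟩ := h
    have hmem : bs.getD i ⟨0, 0, []⟩ ∈ bs := by
      rw [List.getD_eq_getElem bs _ hi]
      exact List.getElem_mem hi
    rw [combPairs, lsum_append, lsum_scaleL_eq,
      ih hrest (fun y hy => hgood y (List.mem_cons_of_mem _ hy))]
    simp only [List.map_cons, List.sum_cons]
    congr 2
    have e := imgOK_spec hn hp hB (hgood (g, i, c, items) List.mem_cons_self) (hg _ hmem) _ _ himg
    rw [htbl _ hmem] at e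
    rw [bval, htbl _ hmem, e]

/-- Check that all listed elements are given by words. -/
def wordsOK (n : ℕ) [NeZero n] : List (ℕ × ℕ × ℕ × List (ℕ × ℕ)) → List (List ℕ) → Bool
  | [], [] => true
  | x :: l, w :: m =>
    Nat.beq (code ((elemOf (n := n) w : alternatingGroup (Fin n)) : Equiv.Perm (Fin n))) x.1 &&
      wordsOK n l m
  | _, _ => false

theorem wordsOK_spec : ∀ (l : List (ℕ × ℕ × ℕ × List (ℕ × ℕ))) (m : List (List ℕ)),
    wordsOK n l m = true → ∀ x ∈ l, Good n x.1
  | [], _, _, x, hx => by simp at hx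
  | _ :: _, [], h, _, _ => by simp [wordsOK] at h
  | y :: l, w :: m, h, x, hx => by
    simp only [wordsOK, Bool.and_eq_true] at h
    rcases List.mem_cons.1 hx with rfl | hx
    · exact good_of_code w (Nat.eq_of_beq_eq_true h.1)
    · exact wordsOK_spec l m h.2 x hx

end CfsgLib.AltCent
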