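import Cfsg.Agent.AltCent.Fixed
import Cfsg.Agent.Coprime.Generation
import Cfsg.Agent.Coprime.Glauberman

/-! # Lifting an alternating section

If every non-central `p`-element of `L` has soluble centraliser and `L` is minimal with an epimorphism
to an alternating group, then a `p`-element of that group centralised by a non-soluble `p'`-subgroup
cannot exist, and the bottom non-central layer gives a module without fixed vectors of non-soluble
subgroups. -/

set_option autoImplicit false

universe u v

open scoped commutatorElement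

namespace CfsgLib.AltCent

variable {L : Type u} [Group L] [Finite L] {A : Type v} [Group A] [Finite A] {p : ℕ} [Fact p.Prime]

/-- The hypothesis on centralisers. -/
def SolCent (p : ℕ) (L : Type u) [Group L] : Prop :=
  ∀ x : L, x ∉ Subgroup.center L → (∃ k : ℕ, orderOf x = p ^ k) →
    Group.IsSolvable (Subgroup.centralizer ({x} : Set L))

/-- A subgroup with a non-soluble image is non-soluble. -/
theorem not_isSolvable_of_map {D : Subgroup L} (f : L →* A) {S : Subgroup A}
    (hS : ¬ Group.IsSolvable S) (h : S ≤ D.map f) : ¬ Group.IsSolvable D := by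
  intro hD
  haveI := hD
  have : Group.IsSolvable (D.map f) :=
    Group.isSolvable_of_surjective (MonoidHom.subgroupMap_surjective f D)
  exact hS (Group.isSolvable_of_isSolvable_injective (Subgroup.inclusion_injective h))

/-- The kernel of a minimal epimorphism is nilpotent. -/
theorem isNilpotent_ker (f : L →* A) (hf : Function.Surjective f)
    (hmin : ∀ M : Subgroup L, M.map f = ⊤ → M = ⊤) : Group.IsNilpotent f.ker := by
  have hle : f.ker ≤ frattini L := by
    rw [frattini, Order.radical]
    refine le_iInf₂ fun M hM => ?_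
    by_contra hk
    have htop : M ⊔ f.ker = ⊤ := hM.2 _ (left_lt_sup.2 hk)
    refine hM.1 (hmin M ?_)
    have := congrArg (Subgroup.map f) htop
    rwa [Subgroup.map_sup, (Subgroup.map_eq_bot_iff f.ker).2 le_rfl, sup_bot_eq,
      Subgroup.map_top_of_surjective f hf] at this
  haveI := frattini_nilpotent (G := L)
  exact Subgroup.isNilpotent_of_ker_le_center (Subgroup.inclusion hle)
    (by rw [(MonoidHom.ker_eq_bot_iff _).2 (Subgroup.inclusion_injective hle)]; exact bot_le)

/-- The data attached to the kernel: its normal Sylow `p`-subgroup. -/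
structure KerData (p : ℕ) (f : L →* A) (Kp : Subgroup L) : Prop where
  le : Kp ≤ f.ker
  normal : Kp.Normal
  pgroup : IsPGroup p Kp
  coprime : ¬ p ∣ Kp.relIndex f.ker
  nilpotent : Group.IsNilpotent f.ker

theorem exists_kerData (f : L →* A) (hf : Function.Surjective f)
    (hmin : ∀ M : Subgroup L, M.map f = ⊤ → M = ⊤) : ∃ Kp : Subgroup L, KerData p f Kp := by
  haveI := isNilpotent_ker f hf hmin
  let P : Sylow p f.ker := default
  haveI hPn : (P : Subgroup f.ker).Normal :=
    inferInstance
  haveI : (P : Subgroup f.ker).Characteristic := P.characteristic_of_normal hPn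
  refine ⟨(P : Subgroup f.ker).map f.ker.subtype, ⟨Subgroup.map_subtype_le _, inferInstance,
    P.isPGroup'.map _, ?_, inferInstance⟩⟩
  rw [Subgroup.relIndex, Subgroup.subgroupOf,
    Subgroup.comap_map_eq_self_of_injective f.ker.subtype_injective]
  exact P.not_dvd_index

variable {f : L →* A} {Kp : Subgroup L}

theorem exists_p_preimage (hf : Function.Surjective f) {t : A} {k : ℕ} (ht : orderOf t = p ^ k) :
    ∃ x : L, f x = t ∧ ∃ j : ℕ, orderOf x = p ^ j := by
  obtain ⟨x₀, hx₀⟩ := hf t
  obtain ⟨a, m, hm, hcard⟩ := Nat.exists_eq_pow_mul_and_not_dvd (orderOf_pos x₀).ne' p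
    (Fact.out : p.Prime).ne_one
  obtain ⟨u, hu⟩ := exists_pow_eq_self_of_coprime (x := t) (n := m)
    (by rw [ht]; exact ((Fact.out : p.Prime).coprime_iff_not_dvd.2 hm).symm.pow_right k)
  refine ⟨(x₀ ^ m) ^ u, by rw [map_pow, map_pow, hx₀, hu], ?_⟩
  have hpow : ((x₀ ^ m) ^ u) ^ p ^ a = 1 := by
    rw [← pow_mul, ← pow_mul, show m * (u * p ^ a) = p ^ a * m * u by ring, ← hcard, pow_mul,
      pow_orderOf_eq_one, one_pow]
  obtain ⟨j, -, hj⟩ := (Nat.dvd_prime_pow (Fact.out : p.Prime)).1 (orderOf_dvd_of_pow_eq_one hpow)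
  exact ⟨j, hj⟩

/-- The subgroup of `S.comap f` centralising `x` modulo `Kp`. -/
def modCent (f : L →* A) (S : Subgroup A) (Kp : Subgroup L) [Kp.Normal] (x : L) : Subgroup L :=
  S.comap f ⊓ (Subgroup.centralizer ({(x : L ⧸ Kp)} : Set (L ⧸ Kp))).comap (QuotientGroup.mk' Kp)

theorem le_map_modCent (hK : KerData p f Kp) (hf : Function.Surjective f) {S : Subgroup A} {x : L}
    {t : A} (hx : f x = t) {j : ℕ} (hxp : orderOf x = p ^ j) (hS : ∀ s ∈ S, s * t = t * s) :
    haveI := hK.normal
    S ≤ (modCent f S Kp x).map f := by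
  haveI := hK.normal
  intro s hs
  obtain ⟨m, rfl⟩ := hf s
  set q := QuotientGroup.mk' Kp
  have hcardH : Nat.card (f.ker.map q) = Kp.relIndex f.ker := by
    rw [← Subgroup.relIndex_ker, QuotientGroup.ker_mk']
  have hcop : (Nat.card (Subgroup.zpowers (q x))).Coprime (Nat.card (f.ker.map q)) := by
    obtain ⟨i, -, hi⟩ := (Nat.dvd_prime_pow (Fact.out : p.Prime)).1 (hxp ▸ orderOf_map_dvd q x)
    rw [Nat.card_zpowers, hi, hcardH]
    exact ((Fact.out : p.Prime).coprime_iff_not_dvd.2 hK.coprime).pow_left i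
  have hnorm : Subgroup.zpowers (q x) ≤ Subgroup.normalizer ((f.ker.map q) : Set (L ⧸ Kp)) := by
    haveI : (f.ker.map q).Normal := Subgroup.Normal.map inferInstance q (QuotientGroup.mk'_surjective Kp)
    rw [Subgroup.normalizer_eq_top]
    exact le_top
  obtain ⟨h, hh, hc⟩ := CfsgLib.Coprime.exists_fixed_coset hnorm hcop
    (Or.inl inferInstance) (g := q m) (fun a ha => by
      obtain ⟨i, rfl⟩ := Subgroup.mem_zpowers_iff.1 ha
      refine ⟨m⁻¹ * (x ^ i * m * (x ^ i)⁻¹), ?_, by simp⟩
      rw [SetLike.mem_coe, MonoidHom.mem_ker, map_mul, map_mul, map_mul, map_inv, map_inv, map_zpow, hx]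
      have hc : Commute (f m) (t ^ i) := (show Commute (f m) t from hS _ hs).zpow_right i
      rw [← hc.eq]
      group)
  obtain ⟨k, hk, rfl⟩ := hh
  refine ⟨m * k, Subgroup.mem_inf.2 ⟨?_, ?_⟩, by rw [map_mul, MonoidHom.mem_ker.1 hk, mul_one]⟩
  · rw [Subgroup.mem_comap, map_mul, MonoidHom.mem_ker.1 hk, mul_one]
    exact hs
  · rw [Subgroup.mem_comap, map_mul]
    rw [Subgroup.mem_centralizer_singleton_iff]
    exact ((Subgroup.mem_centralizer_iff.1 hc) _ (Subgroup.mem_zpowers (q x))).symm

theorem nonsolvable_centralizer_absurd (hL : SolCent p L) {x : L} {t : A} (hx : f x = t)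
    (hxp : ∃ j : ℕ, orderOf x = p ^ j) (ht : ∃ a : A, a * t ≠ t * a) (hf : Function.Surjective f)
    {D : Subgroup L} (hD : ¬ Group.IsSolvable D) (hDc : ∀ d ∈ D, d * x = x * d) : False := by
  have hxc : x ∉ Subgroup.center L := by
    intro h
    obtain ⟨a, ha⟩ := ht
    obtain ⟨b, rfl⟩ := hf a
    exact ha (by rw [← hx, ← map_mul, ← map_mul, Subgroup.mem_center_iff.1 h b])
  haveI := hL x hxc hxp
  have hle : D ≤ Subgroup.centralizer ({x} : Set L) := fun d hd =>
    Subgroup.mem_centralizer_singleton_iff.2 (hDc d hd)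
  exact hD (Group.isSolvable_of_isSolvable_injective (Subgroup.inclusion_injective hle))

/-- Commutators with `x` in the centre leave a non-soluble centraliser. -/
theorem not_isSolvable_centralizer_of_central_commutator {x : L} {D : Subgroup L}
    (hD : ¬ Group.IsSolvable D) (hmem : ∀ d : D, ⁅(d : L), x⁆ ∈ Subgroup.center L) :
    ¬ Group.IsSolvable (Subgroup.centralizer ({x} : Set L)) := by
  let φ : D →* Subgroup.center L :=
    { toFun := fun d => ⟨⁅(d : L), x⁆, hmem d⟩
      map_one' := Subtype.ext (by simp)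
      map_mul' := fun a b => Subtype.ext (by
        show ⁅(a : L) * b, x⁆ = ⁅(a : L), x⁆ * ⁅(b : L), x⁆
        have hb := Subgroup.mem_center_iff.1 (hmem b) (a : L)
        calc ⁅(a : L) * b, x⁆ = ((a : L) * ⁅(b : L), x⁆) * (x * (a : L)⁻¹ * x⁻¹) := by
              simp only [commutatorElement_def]; group
          _ = (⁅(b : L), x⁆ * (a : L)) * (x * (a : L)⁻¹ * x⁻¹) := by rw [hb]
          _ = ⁅(b : L), x⁆ * ⁅(a : L), x⁆ := by simp only [commutatorElement_def]; group
          _ = ⁅(a : L), x⁆ * ⁅(b : L), x⁆ := (Subgroup.mem_center_iff.1 (hmem b) _).symm) }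
  have hker : ¬ Group.IsSolvable φ.ker := by
    intro h
    haveI := h
    haveI : Group.IsSolvable (Subgroup.center L) :=
      Group.isSolvable_of_comm fun a b => Subtype.ext (Subgroup.mem_center_iff.1 b.2 a)
    exact hD (Group.isSolvable_of_ker_le_range φ.ker.subtype φ (by simp))
  intro h
  haveI := h
  refine hker (Group.isSolvable_of_isSolvable_injective
    (f := (((D.subtype).comp φ.ker.subtype).codRestrict (Subgroup.centralizer ({x} : Set L)) fun d => ?_)) ?_)
  · exact Subgroup.mem_centralizer_singleton_iff.2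
      (commutatorElement_eq_one_iff_mul_comm.1 (congrArg Subtype.val (MonoidHom.mem_ker.1 d.2)))
  · intro a b hab
    have e : ((a : D) : L) = ((b : D) : L) := congrArg (Subgroup.subtype (Subgroup.centralizer ({x} : Set L))) hab
    exact Subtype.ext (Subtype.ext e)

/-- A central `Kp` lets `p`-elements lift with their non-soluble centralisers. -/
theorem false_of_central (hK : KerData p f Kp) (hf : Function.Surjective f) (hL : SolCent p L)
    (hc : Kp ≤ Subgroup.center L) {t : A} {k : ℕ} (hto : orderOf t = p ^ k)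
    (ht : ∃ a : A, a * t ≠ t * a) {S : Subgroup A} (hS : ¬ Group.IsSolvable S)
    (hSt : ∀ s ∈ S, s * t = t * s) : False := by
  haveI := hK.normal
  obtain ⟨x, hx, j, hxj⟩ := exists_p_preimage hf hto
  set D := modCent f S Kp x
  have hmem : ∀ d : D, ⁅(d : L), x⁆ ∈ Subgroup.center L := by
    intro d
    apply hc
    rw [← QuotientGroup.eq_one_iff]
    have := (Subgroup.mem_inf.1 d.2).2
    rw [Subgroup.mem_comap, Subgroup.mem_centralizer_singleton_iff] at this
    rw [commutatorElement_def, QuotientGroup.mk_mul, QuotientGroup.mk_mul, QuotientGroup.mk_mul,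
      QuotientGroup.mk_inv, QuotientGroup.mk_inv]
    exact commutatorElement_eq_one_iff_mul_comm.2 this
  have hxc : x ∉ Subgroup.center L := by
    intro h
    obtain ⟨a, ha⟩ := ht
    obtain ⟨b, rfl⟩ := hf a
    exact ha (by rw [← hx, ← map_mul, ← map_mul, Subgroup.mem_center_iff.1 h b])
  exact not_isSolvable_centralizer_of_central_commutator
    (not_isSolvable_of_map f hS (le_map_modCent hK hf hx hxj hSt)) hmem (hL x hxc ⟨j, hxj⟩)

/-- A non-soluble `p'`-subgroup centralising `t` lifts without any assumption on `Kp`. -/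
theorem false_of_coprime (hK : KerData p f Kp) (hf : Function.Surjective f) (hL : SolCent p L)
    {t : A} {k : ℕ} (hto : orderOf t = p ^ k) (ht : ∃ a : A, a * t ≠ t * a) {S : Subgroup A}
    (hS : ¬ Group.IsSolvable S) (hSp : ¬ p ∣ Nat.card S) (hSt : ∀ s ∈ S, s * t = t * s) : False := by
  haveI := hK.normal
  obtain ⟨x, hx, j, hxj⟩ := exists_p_preimage hf hto
  set D := modCent f S Kp x with hDdef
  have hD : ¬ Group.IsSolvable D := not_isSolvable_of_map f hS (le_map_modCent hK hf hx hxj hSt)
  have hidx : ¬ p ∣ (Kp.subgroupOf D).index := by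
    intro h
    have h1 : Kp.relIndex D ∣ Kp.relIndex (S.comap f) := by
      rw [← QuotientGroup.ker_mk' Kp, Subgroup.relIndex_ker, Subgroup.relIndex_ker]
      exact Subgroup.card_dvd_of_le (Subgroup.map_mono inf_le_left)
    have hle : f.ker ≤ S.comap f := fun y hy => by
      rw [Subgroup.mem_comap, MonoidHom.mem_ker.1 hy]; exact S.one_mem
    have h2 : Kp.relIndex (S.comap f) = Kp.relIndex f.ker * Nat.card S := by
      rw [← Subgroup.relIndex_mul_relIndex _ _ _ hK.le hle, Subgroup.relIndex_ker (f := f),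
        Subgroup.map_comap_eq_self_of_surjective hf]
    rcases (Fact.out : p.Prime).dvd_mul.1 (h2 ▸ h.trans h1) with h3 | h3
    · exact hK.coprime h3
    · exact hSp h3
  have hKD : IsPGroup p (Kp.subgroupOf D) := hK.pgroup.comap_of_injective D.subtype D.subtype_injective
  obtain ⟨a, ha⟩ := IsPGroup.iff_card.1 hKD
  have hcop : (Nat.card (Kp.subgroupOf D)).Coprime (Kp.subgroupOf D).index := by
    rw [ha]; exact ((Fact.out : p.Prime).coprime_iff_not_dvd.2 hidx).pow_left a
  obtain ⟨Y, hY⟩ := Subgroup.exists_right_complement'_of_coprime hcop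
  have hYcard : Nat.card Y = (Kp.subgroupOf D).index := (hY.symm.index_eq_card).symm
  have hYns : ¬ Group.IsSolvable Y := by
    intro h
    haveI := h
    haveI : Group.IsNilpotent (Kp.subgroupOf D) := hKD.isNilpotent
    haveI : Group.IsSolvable (D ⧸ Kp.subgroupOf D) :=
      Group.isSolvable_of_surjective (f := hY.symm.QuotientMulEquiv.symm.toMonoidHom)
        hY.symm.QuotientMulEquiv.symm.surjective
    exact hD (Group.isSolvable_of_ker_le_range (Kp.subgroupOf D).subtype
      (QuotientGroup.mk' (Kp.subgroupOf D)) (by simp))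
  set Y' := Y.map D.subtype
  have hnorm : Y' ≤ Subgroup.normalizer (Kp : Set L) := by
    rw [Subgroup.normalizer_eq_top]; exact le_top
  have hcop' : (Nat.card Y').Coprime (Nat.card Kp) := by
    rw [Subgroup.card_map_of_injective D.subtype_injective, hYcard]
    obtain ⟨b, hb⟩ := IsPGroup.iff_card.1 hK.pgroup
    rw [hb]
    exact (((Fact.out : p.Prime).coprime_iff_not_dvd.2 hidx).symm).pow_right b
  haveI := hK.pgroup.isNilpotent
  obtain ⟨h, hh, hc⟩ := CfsgLib.Coprime.exists_fixed_coset hnorm hcop' (Or.inr inferInstance)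
    (g := x) (by
      rintro _ ⟨d, -, rfl⟩
      have := (Subgroup.mem_inf.1 d.2).2
      rw [Subgroup.mem_comap, Subgroup.mem_centralizer_singleton_iff] at this
      rw [← QuotientGroup.eq_one_iff]
      simp only [Subgroup.coe_subtype, QuotientGroup.mk_mul, QuotientGroup.mk_inv]
      rw [show ((d : L) : L ⧸ Kp) * (x : L ⧸ Kp) = (x : L ⧸ Kp) * (d : L) from this]
      group)
  refine nonsolvable_centralizer_absurd hL (x := x * h) ?_ ?_ ht hf (D := Y') ?_ ?_
  · rw [map_mul, MonoidHom.mem_ker.1 (hK.le hh), mul_one, hx]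
  · have h1 : (x * h) ^ p ^ j ∈ Kp := by
      rw [← QuotientGroup.eq_one_iff, QuotientGroup.mk_pow, QuotientGroup.mk_mul,
        (QuotientGroup.eq_one_iff h).2 hh, mul_one, ← QuotientGroup.mk_pow, ← hxj, pow_orderOf_eq_one]
      rfl
    obtain ⟨b, hb⟩ := hK.pgroup ⟨_, h1⟩
    have : (x * h) ^ (p ^ (j + b)) = 1 := by
      rw [pow_add, pow_mul]
      exact congrArg Subtype.val hb
    obtain ⟨i, -, hi⟩ := (Nat.dvd_prime_pow (Fact.out : p.Prime)).1 (orderOf_dvd_of_pow_eq_one this)
    exact ⟨i, hi⟩
  · exact fun h => hYns (by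
      haveI := h
      exact Group.isSolvable_of_isSolvable_injective
        (f := (Y.equivMapOfInjective D.subtype D.subtype_injective).toMonoidHom)
        (Y.equivMapOfInjective D.subtype D.subtype_injective).injective)
  · intro d hd
    exact (Subgroup.mem_centralizer_iff.1 hc) d hd

end CfsgLib.AltCent
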