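import Cfsg.Agent.AltCent.Lift
import Cfsg.Agent.Solvable.CoprimeIndex

/-! # The bottom non-central layer as a module

If `Kp` is not central, a minimal normal layer above `Kp ⊓ Z(L)` is an elementary abelian `p`-group
centralised by the kernel, on which no non-soluble subgroup of the quotient fixes a nonzero vector. -/

set_option autoImplicit false

universe u v

open scoped commutatorElement

namespace CfsgLib.AltCent

variable {L : Type u} [Group L] [Finite L] {A : Type v} [Group A] [Finite A] {p : ℕ} [Fact p.Prime]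
  {f : L →* A} {Kp : Subgroup L}

/-- A nontrivial normal subgroup of a `p`-group has a nontrivial element centralised by it. -/
theorem exists_ne_one_commute {Q : Type u} [Group Q] [Finite Q] {P W : Subgroup Q} [W.Normal]
    (hP : IsPGroup p P) (hW : IsPGroup p W) (hne : W ≠ ⊥) :
    ∃ w ∈ W, w ≠ 1 ∧ ∀ y ∈ P, y * w = w * y := by
  letI : MulAction P W := MulAction.compHom W ((MulAut.conjNormal (H := W)).comp P.subtype)
  haveI : Nontrivial W := (Subgroup.nontrivial_iff_ne_bot W).2 hne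
  have hpdvd : p ∣ Nat.card W := by
    obtain ⟨k, hk, hcard⟩ := hW.nontrivial_iff_card.1 inferInstance
    rw [hcard]
    exact dvd_pow_self p (by omega)
  have h1 : (1 : W) ∈ MulAction.fixedPoints P W := fun y => map_one (MulAut.conjNormal (y : Q))
  obtain ⟨w, hw, hne1⟩ := hP.exists_fixed_point_of_prime_dvd_card_of_fixed_point W hpdvd h1
  refine ⟨w, w.2, fun h => hne1 (Subtype.ext h.symm), fun y hy => ?_⟩
  have h2 : (y : Q) * (w : Q) * y⁻¹ = w :=
    (MulAut.conjNormal_apply y w).symm.trans (congrArg Subtype.val (hw ⟨y, hy⟩))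
  exact mul_inv_eq_iff_eq_mul.1 h2

/-- Elements of the kernel of `p'`-order centralise `Kp`; the others lie in it. -/
theorem kernel_split (hK : KerData p f Kp) {k : L} (hk : k ∈ f.ker) (C : Subgroup L) (hKC : Kp ≤ C)
    (hC : ∀ c ∈ f.ker, (∀ y ∈ Kp, c * y = y * c) → c ∈ C) : k ∈ C := by
  haveI := hK.normal
  haveI := hK.nilpotent
  obtain ⟨a, m, hm, hcard⟩ := Nat.exists_eq_pow_mul_and_not_dvd (orderOf_pos k).ne' p
    (Fact.out : p.Prime).ne_one
  have hcop : (p ^ a).Coprime m := ((Fact.out : p.Prime).coprime_iff_not_dvd.2 hm).pow_left a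
  have h1 : k ^ p ^ a ∈ C := by
    refine hC _ (pow_mem hk _) fun y hy => ?_
    obtain ⟨b, hb⟩ := hK.pgroup ⟨y, hy⟩
    have hb' : y ^ p ^ b = 1 := congrArg Subtype.val hb
    have ho : orderOf (⟨k ^ p ^ a, pow_mem hk _⟩ : f.ker) ∣ m := by
      refine orderOf_dvd_of_pow_eq_one (Subtype.ext ?_)
      show (k ^ p ^ a) ^ m = 1
      rw [← pow_mul, ← hcard, pow_orderOf_eq_one]
    have ho' : orderOf (⟨y, hK.le hy⟩ : f.ker) ∣ p ^ b := orderOf_dvd_of_pow_eq_one (Subtype.ext hb')
    exact congrArg Subtype.val (CfsgLib.Solvable.commute_of_coprime_orderOf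
      (Nat.Coprime.of_dvd ho ho' (((Fact.out : p.Prime).coprime_iff_not_dvd.2 hm).symm.pow_right b)))
  have h2 : k ^ m ∈ C := by
    refine hKC ?_
    set q := QuotientGroup.mk' (Kp.subgroupOf f.ker)
    have he : orderOf (q ⟨k ^ m, pow_mem hk _⟩) ∣ p ^ a := by
      refine (orderOf_map_dvd q _).trans (orderOf_dvd_of_pow_eq_one (Subtype.ext ?_))
      show (k ^ m) ^ p ^ a = 1
      rw [← pow_mul, mul_comm, ← hcard, pow_orderOf_eq_one]
    have hd := Nat.eq_one_of_dvd_coprimes
      (((Fact.out : p.Prime).coprime_iff_not_dvd.2 hK.coprime).pow_left a) he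
      (by rw [Subgroup.relIndex, Subgroup.index_eq_card]; exact orderOf_dvd_natCard _)
    exact Subgroup.mem_subgroupOf.1 ((QuotientGroup.eq_one_iff _).1 (orderOf_eq_one_iff.1 hd))
  have e : (1 : ℤ) = (p ^ a : ℕ) * Nat.gcdA (p ^ a) m + (m : ℤ) * Nat.gcdB (p ^ a) m := by
    rw [← Nat.gcd_eq_gcd_ab, Nat.coprime_iff_gcd_eq_one.1 hcop, Nat.cast_one]
  rw [← zpow_one k, e, zpow_add, zpow_mul, zpow_mul, zpow_natCast, zpow_natCast]
  exact mul_mem (zpow_mem h1 _) (zpow_mem h2 _)

/-- The layer above `Kp ⊓ Z(L)`. -/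
theorem exists_layer (hK : KerData p f Kp) (hnc : ¬ Kp ≤ Subgroup.center L) :
    ∃ W : Subgroup L, W.Normal ∧ W ≤ Kp ∧ Kp ⊓ Subgroup.center L < W ∧
      (∀ w ∈ W, w ^ p ∈ Kp ⊓ Subgroup.center L) ∧
      ∀ w ∈ W, ∀ k ∈ f.ker, ⁅k, w⁆ ∈ Kp ⊓ Subgroup.center L := by
  haveI := hK.normal
  set Z : Subgroup L := Kp ⊓ Subgroup.center L with hZdef
  haveI : Z.Normal := by rw [hZdef]; infer_instance
  have hmem : ∃ W : Subgroup L, W.Normal ∧ W ≤ Kp ∧ Z < W :=
    ⟨Kp, hK.normal, le_rfl, lt_of_le_of_ne inf_le_left fun h => hnc (h ▸ inf_le_right)⟩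
  obtain ⟨W, hW⟩ := exists_minimal_of_wellFoundedLT (fun W : Subgroup L => W.Normal ∧ W ≤ Kp ∧ Z < W) hmem
  obtain ⟨hWn, hWK, hZW⟩ := hW.prop
  haveI := hWn
  have hmax : ∀ M : Subgroup L, M.Normal → M ≤ W → Z ≤ M → (∃ w ∈ M, w ∉ Z) → W ≤ M :=
    fun M hM hMW hZM ⟨w, hw, hwZ⟩ => hW.le_of_le
      ⟨hM, hMW.trans hWK, lt_of_le_of_ne hZM fun h => hwZ (h ▸ hw)⟩ hMW
  set π := QuotientGroup.mk' Z with hπdef
  have hπ : Function.Surjective π := QuotientGroup.mk'_surjective Z
  have hπker : ∀ x, π x = 1 ↔ x ∈ Z := fun x => QuotientGroup.eq_one_iff x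
  haveI : (W.map π).Normal := Subgroup.Normal.map hWn π hπ
  haveI : (f.ker.map π).Normal := Subgroup.Normal.map inferInstance π hπ
  have hne : W.map π ≠ ⊥ := by
    intro h
    rw [Subgroup.map_eq_bot_iff, hπdef, QuotientGroup.ker_mk'] at h
    exact hZW.not_ge h
  have hpW : IsPGroup p (W.map π) := (hK.pgroup.to_le hWK).map π
  obtain ⟨_, ⟨w, hw, rfl⟩, hw1, hwc⟩ := exists_ne_one_commute (hK.pgroup.map π) hpW hne
  have hcen : W ≤ W ⊓ (Subgroup.centralizer (f.ker.map π : Set (L ⧸ Z))).comap π := by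
    refine hmax _ inferInstance inf_le_left (le_inf hZW.le fun z hz => ?_)
      ⟨w, ⟨hw, ?_⟩, fun h => hw1 ((hπker w).2 h)⟩
    · rw [Subgroup.mem_comap, (hπker z).2 hz]
      exact one_mem _
    · show π w ∈ Subgroup.centralizer (f.ker.map π : Set (L ⧸ Z))
      rw [Subgroup.mem_centralizer_iff]
      rintro _ ⟨k, hk, rfl⟩
      have : k ∈ (Subgroup.centralizer ({π w} : Set (L ⧸ Z))).comap π := by
        refine kernel_split hK hk _ (fun y hy => ?_) fun c _ hc => ?_
        · rw [Subgroup.mem_comap, Subgroup.mem_centralizer_singleton_iff]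
          exact hwc _ ⟨y, hy, rfl⟩
        · rw [Subgroup.mem_comap, Subgroup.mem_centralizer_singleton_iff, ← map_mul, ← map_mul,
            hc w (hWK hw)]
      exact Subgroup.mem_centralizer_singleton_iff.1 this
  have hcomm : ∀ x ∈ W, ∀ k ∈ f.ker, π k * π x = π x * π k := fun x hx k hk =>
    Subgroup.mem_centralizer_iff.1 (hcen hx).2 (π k) ⟨k, hk, rfl⟩
  let W2 : Subgroup L :=
    { carrier := {x | x ∈ W ∧ x ^ p ∈ Z}
      one_mem' := ⟨one_mem _, by rw [one_pow]; exact one_mem _⟩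
      mul_mem' := fun {a b} ha hb => ⟨mul_mem ha.1 hb.1, (hπker _).1 (by
        rw [map_pow, map_mul, (show Commute (π a) (π b) from
          hcomm b hb.1 a (hK.le (hWK ha.1))).mul_pow, ← map_pow, ← map_pow, (hπker _).2 ha.2,
          (hπker _).2 hb.2, one_mul])⟩
      inv_mem' := fun {a} ha => ⟨inv_mem ha.1, by rw [inv_pow]; exact inv_mem ha.2⟩ }
  have hexp : W ≤ W2 := by
    refine hmax W2 ⟨fun x hx g => ⟨hWn.conj_mem x hx.1 g, ?_⟩⟩ (fun x hx => hx.1)
      (fun x hx => ⟨hZW.le hx, pow_mem hx p⟩) ?_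
    · rw [conj_pow]
      exact Subgroup.Normal.conj_mem inferInstance _ hx.2 g
    · haveI : Nontrivial (W.map π) := (Subgroup.nontrivial_iff_ne_bot _).2 hne
      obtain ⟨k, hk, hcard⟩ := hpW.nontrivial_iff_card.1 inferInstance
      obtain ⟨⟨_, x, hx, rfl⟩, ho⟩ := exists_prime_orderOf_dvd_card' (G := W.map π) p
        (hcard ▸ dvd_pow_self p (by omega))
      rw [← Subgroup.orderOf_coe] at ho
      change orderOf (π x) = p at ho
      refine ⟨x, ⟨hx, (hπker _).1 (by rw [map_pow, ← ho, pow_orderOf_eq_one])⟩, fun h => ?_⟩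
      rw [(hπker x).2 h, orderOf_one] at ho
      exact (Fact.out : p.Prime).ne_one ho.symm
  exact ⟨W, hWn, hWK, hZW, fun x hx => (hexp hx).2, fun x hx k hk => (hπker _).1 (by
    rw [map_commutatorElement, commutatorElement_eq_one_iff_mul_comm]; exact hcomm x hx k hk)⟩

/-- A non-central `Kp` yields a module, so killing all such modules is absurd. -/
theorem false_of_modules (hK : KerData p f Kp) (hf : Function.Surjective f) (hL : SolCent p L)
    (hnc : ¬ Kp ≤ Subgroup.center L)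
    (H : ∀ (V : Type u) [AddCommGroup V] [Finite V] [DistribMulAction A V], (∀ x : V, p • x = 0) →
      (∀ (S : Subgroup A) (w : V), ¬ Group.IsSolvable S → (∀ s ∈ S, s • w = w) → w = 0) →
        ∀ v : V, v = 0) : False := by
  haveI := hK.normal
  obtain ⟨W, hWn, hWK, hZW, hexp, hcomm⟩ := exists_layer hK hnc
  haveI := hWn
  set Z : Subgroup L := Kp ⊓ Subgroup.center L with hZdef
  haveI : Z.Normal := by rw [hZdef]; infer_instance
  let π := QuotientGroup.mk' Z
  have hπker : ∀ x, π x = 1 ↔ x ∈ Z := fun x => QuotientGroup.eq_one_iff x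
  haveI : (W.map π).Normal := Subgroup.Normal.map hWn π (QuotientGroup.mk'_surjective Z)
  have hcomm' : ∀ x ∈ W, ∀ k ∈ f.ker, π k * π x = π x * π k := fun x hx k hk => by
    rw [← commutatorElement_eq_one_iff_mul_comm, ← map_commutatorElement]
    exact (hπker _).2 (hcomm x hx k hk)
  letI : CommGroup (W.map π) :=
    { (inferInstance : Group (W.map π)) with
      mul_comm := by
        rintro ⟨_, a, ha, rfl⟩ ⟨_, b, hb, rfl⟩
        exact Subtype.ext (hcomm' b hb a (hK.le (hWK ha))) }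
  have hker : f.ker ≤ ((MulAut.conjNormal (H := W.map π)).comp π).ker := by
    intro k hk
    rw [MonoidHom.mem_ker]
    ext ⟨_, x, hx, rfl⟩
    show ((MulAut.conjNormal (π k) ⟨π x, _⟩ : W.map π) : L ⧸ Z) = π x
    rw [MulAut.conjNormal_apply, hcomm' x hx k hk, mul_inv_cancel_right]
  let ρ : A →* MulAut (W.map π) :=
    MonoidHom.liftOfSurjective f hf ⟨(MulAut.conjNormal (H := W.map π)).comp π, hker⟩
  have hρ : ∀ l : L, ρ (f l) = MulAut.conjNormal (π l) := fun l =>
    MonoidHom.liftOfRightInverse_comp_apply f _ (Function.rightInverse_surjInv hf) _ l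
  letI : DistribMulAction A (Additive (W.map π)) :=
    { smul := fun a w => Additive.ofMul (ρ a w.toMul)
      one_smul := fun w => by
        show Additive.ofMul (ρ 1 w.toMul) = w
        rw [map_one]; rfl
      mul_smul := fun a b w => by
        show Additive.ofMul (ρ (a * b) w.toMul) = Additive.ofMul (ρ a (ρ b w.toMul))
        rw [map_mul]; rfl
      smul_zero := fun a => congrArg Additive.ofMul (map_one (ρ a))
      smul_add := fun a w z => congrArg Additive.ofMul (map_mul (ρ a) w.toMul z.toMul) }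
  have h0 := H (Additive (W.map π)) (fun x => by
    obtain ⟨⟨_, y, hy, rfl⟩, rfl⟩ := Additive.ofMul.surjective x
    rw [← ofMul_pow, ofMul_eq_zero]
    exact Subtype.ext (by rw [SubgroupClass.coe_pow, ← map_pow, (hπker _).2 (hexp y hy)]; rfl)) ?_
  · obtain ⟨w, hw, hwZ⟩ := SetLike.exists_of_lt hZW
    have := congrArg (fun x => ((Additive.toMul x : W.map π) : L ⧸ Z))
      (h0 (Additive.ofMul ⟨π w, w, hw, rfl⟩))
    exact hwZ ((hπker w).1 this)
  · intro S x hS hfix
    obtain ⟨⟨_, w, hw, rfl⟩, rfl⟩ := Additive.ofMul.surjective x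
    by_contra hne
    have hwZ : w ∉ Z := fun h => hne (by
      rw [ofMul_eq_zero]; exact Subtype.ext ((hπker w).2 h))
    have hwc : w ∉ Subgroup.center L := fun h => hwZ (Subgroup.mem_inf.2 ⟨hWK hw, h⟩)
    obtain ⟨b, hb⟩ := hK.pgroup ⟨w, hWK hw⟩
    obtain ⟨i, -, hi⟩ := (Nat.dvd_prime_pow (Fact.out : p.Prime)).1
      (orderOf_dvd_of_pow_eq_one (congrArg Subtype.val hb : w ^ p ^ b = 1))
    refine not_isSolvable_centralizer_of_central_commutator (D := S.comap f)
      (not_isSolvable_of_map f hS (Subgroup.map_comap_eq_self_of_surjective hf S).ge)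
      (fun d => ?_) (hL w hwc ⟨i, hi⟩)
    refine (Subgroup.mem_inf.1 ((hπker _).1 ?_)).2
    have h1 := congrArg (fun x => ((Additive.toMul x : W.map π) : L ⧸ Z)) (hfix (f d.1) d.2)
    have h2 : π d.1 * π w * (π d.1)⁻¹ = π w := by
      rw [← MulAut.conjNormal_apply (H := W.map π) (π d.1) ⟨π w, w, hw, rfl⟩, ← hρ]
      exact h1
    rw [map_commutatorElement, commutatorElement_eq_one_iff_mul_comm]
    exact mul_inv_eq_iff_eq_mul.1 h2

/-- In a `(2,3,5)` or `(2,3,7)` group the generators are trivial modulo commutators. -/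
theorem not_isSolvable_closure_pair {a b : A} (ha : a ^ 2 = 1) (hb : b ^ 3 = 1)
    (hab : (a * b) ^ 5 = 1 ∨ (a * b) ^ 7 = 1) (ha1 : a ≠ 1) :
    ¬ Group.IsSolvable (Subgroup.closure ({a, b} : Set A)) := by
  intro h
  haveI := h
  set H := Subgroup.closure ({a, b} : Set A)
  let a' : H := ⟨a, Subgroup.subset_closure (by simp)⟩
  let b' : H := ⟨b, Subgroup.subset_closure (by simp)⟩
  haveI : Nontrivial H := ⟨⟨a', 1, fun e => ha1 (congrArg Subtype.val e)⟩⟩
  refine ne_of_lt (Group.IsSolvable.commutator_lt_top_of_nontrivial H) (top_le_iff.1 ?_)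
  have key : ∀ (x y : Abelianization H), x ^ 2 = 1 → y ^ 3 = 1 →
      ((x * y) ^ 5 = 1 ∨ (x * y) ^ 7 = 1) → x = 1 ∧ y = 1 := by
    intro x y hx hy hxy
    have hyx : x = y ^ 1 ∨ x = y ^ 2 := by
      rcases hxy with h5 | h7
      · left
        rw [mul_pow, show x ^ 5 = (x ^ 2) ^ 2 * x by group, show y ^ 5 = y ^ 3 * y ^ 2 by group,
          hx, hy, one_pow, one_mul, one_mul] at h5
        calc x = x * y ^ 3 := by rw [hy, mul_one]
          _ = (x * y ^ 2) * y := by group
          _ = y ^ 1 := by rw [h5, one_mul, pow_one]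
      · right
        rw [mul_pow, show x ^ 7 = (x ^ 2) ^ 3 * x by group, show y ^ 7 = (y ^ 3) ^ 2 * y by group,
          hx, hy, one_pow, one_pow, one_mul, one_mul] at h7
        calc x = x * y ^ 3 := by rw [hy, mul_one]
          _ = (x * y) * y ^ 2 := by group
          _ = y ^ 2 := by rw [h7, one_mul]
    rcases hyx with rfl | rfl
    · rw [pow_one] at hx
      have : y = 1 := by rwa [show y ^ 3 = y ^ 2 * y by group, hx, one_mul] at hy
      exact ⟨by rw [this, one_pow], this⟩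
    · rw [show (y ^ 2) ^ 2 = y ^ 3 * y by group, hy, one_mul] at hx
      exact ⟨by rw [hx, one_pow], hx⟩
  have hA : a' ^ 2 = 1 := Subtype.ext ha
  have hB : b' ^ 3 = 1 := Subtype.ext hb
  obtain ⟨h1, h2⟩ := key (Abelianization.of a') (Abelianization.of b')
    (by rw [← map_pow, hA, map_one]) (by rw [← map_pow, hB, map_one])
    (hab.imp
      (fun e => by rw [← map_mul, ← map_pow, show (a' * b') ^ 5 = 1 from Subtype.ext e, map_one])
      (fun e => by rw [← map_mul, ← map_pow, show (a' * b') ^ 7 = 1 from Subtype.ext e, map_one]))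
  rintro ⟨x, hx⟩ -
  refine Subgroup.closure_induction (p := fun x hx => (⟨x, hx⟩ : H) ∈ commutator H)
    ?_ (one_mem _) (fun _ _ _ _ => mul_mem) (fun _ _ => inv_mem) hx
  rintro _ (rfl | rfl)
  · exact (Abelianization.ker_of (G := H)).le h1
  · exact (Abelianization.ker_of (G := H)).le h2

end CfsgLib.AltCent
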