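import Cfsg.Agent.AltCent.Module
import Mathlib.GroupTheory.SpecificGroups.Alternating
import Mathlib.GroupTheory.Perm.ViaEmbedding
import Mathlib.GroupTheory.Perm.Fin

/-! # Reduction to the smallest excluded degree -/

set_option autoImplicit false

universe u v

namespace CfsgLib.AltCent

variable {p : ℕ}

/-- The centraliser hypothesis passes to subgroups. -/
theorem solCent_of_injective {L G : Type u} [Group L] [Group G] (ι : L →* G)
    (hι : Function.Injective ι) (h : SolCent p G) : SolCent p L := by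
  intro x hx hxp
  have hxG : ι x ∉ Subgroup.center G := fun hc => hx (Subgroup.mem_center_iff.2 fun y => hι (by
    rw [map_mul, map_mul, Subgroup.mem_center_iff.1 hc]))
  haveI := h (ι x) hxG (by rwa [orderOf_injective ι hι])
  refine Group.isSolvable_of_isSolvable_injective
    (f := (ι.comp (Subgroup.centralizer ({x} : Set L)).subtype).codRestrict
      (Subgroup.centralizer ({ι x} : Set G)) fun y => ?_) ?_
  · rw [Subgroup.mem_centralizer_singleton_iff, MonoidHom.comp_apply, Subgroup.coe_subtype, ← map_mul,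
      Subgroup.mem_centralizer_singleton_iff.1 y.2, map_mul]
  · intro a b hab
    exact Subtype.ext (hι (congrArg (Subgroup.subtype (Subgroup.centralizer ({ι x} : Set G))) hab))

/-- A surjection has a minimal restriction. -/
theorem exists_minimal_surjection {L : Type u} [Group L] [Finite L] {A : Type v} [Group A]
    (ψ : L →* A) (hψ : Function.Surjective ψ) :
    ∃ M : Subgroup L, Function.Surjective (ψ.comp M.subtype) ∧
      ∀ N : Subgroup M, N.map (ψ.comp M.subtype) = ⊤ → N = ⊤ := by
  obtain ⟨M, hM⟩ := exists_minimal_of_wellFoundedLT (fun M : Subgroup L => M.map ψ = ⊤)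
    ⟨⊤, Subgroup.map_top_of_surjective ψ hψ⟩
  refine ⟨M, fun a => ?_, fun N hN => ?_⟩
  · obtain ⟨x, hx, e⟩ := (show a ∈ M.map ψ by rw [hM.prop]; trivial)
    exact ⟨⟨x, hx⟩, e⟩
  · have h1 : (N.map M.subtype).map ψ = ⊤ := by rw [Subgroup.map_map]; exact hN
    have h2 : M ≤ N.map M.subtype := hM.le_of_le h1 (Subgroup.map_subtype_le N)
    refine top_le_iff.1 fun x _ => ?_
    obtain ⟨y, hy, e⟩ := h2 x.2
    rwa [← Subtype.ext (e : (y : L) = (x : L))]

/-- `A_m` embeds in `A_d` for `m ≤ d`. -/
theorem exists_alt_embedding {m d : ℕ} (h : m ≤ d) :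
    ∃ ι : alternatingGroup (Fin m) →* alternatingGroup (Fin d), Function.Injective ι := by
  classical
  refine ⟨((Equiv.Perm.viaEmbeddingHom (Fin.castLEEmb h)).comp
    (alternatingGroup (Fin m)).subtype).codRestrict (alternatingGroup (Fin d)) (fun x => ?_), ?_⟩
  · rw [Equiv.Perm.mem_alternatingGroup, MonoidHom.comp_apply, Equiv.Perm.viaEmbeddingHom_apply,
      Equiv.Perm.viaEmbedding, Equiv.Perm.sign_extendDomain]
    exact Equiv.Perm.mem_alternatingGroup.1 x.2
  · intro a b hab
    exact Subtype.ext (Equiv.Perm.viaEmbeddingHom_injective _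
      (congrArg (Subgroup.subtype (alternatingGroup (Fin d))) hab))

/-- The alternating group of degree five is not soluble. -/
theorem not_isSolvable_alt_five : ¬ Group.IsSolvable (alternatingGroup (Fin 5)) := fun h => by
  haveI := h
  exact Equiv.Perm.not_isSolvable_fin_5 (Group.isSolvable_of_ker_le_range
    (alternatingGroup (Fin 5)).subtype Equiv.Perm.sign
    (fun x hx => ⟨⟨x, Equiv.Perm.mem_alternatingGroup.2 hx⟩, rfl⟩))

/-- A permutation of the first `k` points and a copy of `A_5` on the last five. -/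
theorem exists_commuting_pair {k : ℕ} (t₀ : Equiv.Perm (Fin k)) (ht₀ : Equiv.Perm.sign t₀ = 1)
    (ht1 : t₀ ≠ 1) :
    ∃ (t : alternatingGroup (Fin (k + 5))) (S : Subgroup (alternatingGroup (Fin (k + 5)))),
      orderOf t = orderOf t₀ ∧ (∃ a : alternatingGroup (Fin (k + 5)), a * t ≠ t * a) ∧
        ¬ Group.IsSolvable S ∧ Nat.card S = 60 ∧ ∀ s ∈ S, s * t = t * s := by
  let κ : alternatingGroup (Fin k) × alternatingGroup (Fin 5) →* alternatingGroup (Fin (k + 5)) :=
    ((finSumFinEquiv.permCongrHom.toMonoidHom.comp (Equiv.Perm.sumCongrHom (Fin k) (Fin 5))).comp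
      ((alternatingGroup (Fin k)).subtype.prodMap (alternatingGroup (Fin 5)).subtype)).codRestrict
      (alternatingGroup (Fin (k + 5))) fun x => by
        show Equiv.Perm.sign (finSumFinEquiv.permCongr (Equiv.Perm.sumCongr (x.1 : Equiv.Perm (Fin k))
          (x.2 : Equiv.Perm (Fin 5)))) = 1
        rw [Equiv.Perm.sign_permCongr, Equiv.Perm.sign_sumCongr,
          Equiv.Perm.mem_alternatingGroup.1 x.1.2, Equiv.Perm.mem_alternatingGroup.1 x.2.2, mul_one]
  have hκ : Function.Injective κ := by
    intro a b hab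
    have e := finSumFinEquiv.permCongrHom.injective
      (congrArg (Subgroup.subtype (alternatingGroup (Fin (k + 5)))) hab)
    have e' := Equiv.Perm.sumCongrHom_injective e
    exact Prod.ext (Subtype.ext (congrArg Prod.fst e')) (Subtype.ext (congrArg Prod.snd e'))
  let ι₁ := κ.comp (MonoidHom.inl (alternatingGroup (Fin k)) (alternatingGroup (Fin 5)))
  let ι₂ := κ.comp (MonoidHom.inr (alternatingGroup (Fin k)) (alternatingGroup (Fin 5)))
  let a₀ : alternatingGroup (Fin k) := ⟨t₀, Equiv.Perm.mem_alternatingGroup.2 ht₀⟩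
  have hi₁ : Function.Injective ι₁ := fun a b h => congrArg Prod.fst (hκ h)
  have hi₂ : Function.Injective ι₂ := fun a b h => congrArg Prod.snd (hκ h)
  refine ⟨ι₁ a₀, ι₂.range, by rw [orderOf_injective ι₁ hi₁, Subgroup.orderOf_mk], ?_, ?_, ?_, ?_⟩
  · by_contra hall
    simp only [not_exists, not_not] at hall
    have hc : ι₁ a₀ ∈ Subgroup.center (alternatingGroup (Fin (k + 5))) :=
      Subgroup.mem_center_iff.2 hall
    rw [alternatingGroup.center_eq_bot (by simp), Subgroup.mem_bot, ← map_one ι₁] at hc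
    exact ht1 (congrArg Subtype.val (hi₁ hc))
  · intro h
    haveI := h
    exact not_isSolvable_alt_five (Group.isSolvable_of_isSolvable_injective
      (f := ι₂.rangeRestrict) fun a b e => hi₂ (congrArg Subtype.val e))
  · rw [← Nat.card_congr (MonoidHom.ofInjective hi₂).toEquiv, Nat.card_eq_fintype_card]
    rfl
  · rintro _ ⟨b, rfl⟩
    show κ (1, b) * κ (a₀, 1) = κ (a₀, 1) * κ (1, b)
    rw [← map_mul, ← map_mul]
    simp [Prod.mk_mul_mk]

end CfsgLib.AltCent
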