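import Cfsg.Agent.AltCent.Chain

/-! # Choosing and refining the vector

Fixed vectors of `p`-subgroups given by closed lists of codes, eigenvectors of involutions, and transport
along normalising elements. -/

set_option autoImplicit false

namespace CfsgLib.AltCent

/-- A list containing the identity, closed under left products with `gens`, of exponent `e`. -/
def closedOK (cs gens : List ℕ) (e : ℕ) : Bool :=
  cs.contains idCode && (gens.all fun g => cs.contains g && cs.all fun c => cs.contains (comp g c)) &&
    cs.all fun c => Nat.beq (compPow c e) idCode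

/-- The listed codes are given by words. -/
def codesOK (n : ℕ) [NeZero n] : List ℕ → List (List ℕ) → Bool
  | [], [] => true
  | c :: l, w :: m =>
    Nat.beq (code ((elemOf (n := n) w : alternatingGroup (Fin n)) : Equiv.Perm (Fin n))) c &&
      codesOK n l m
  | _, _ => false

variable {n p : ℕ}

theorem codesOK_spec [NeZero n] : ∀ (l : List ℕ) (m : List (List ℕ)),
    codesOK n l m = true → ∀ c ∈ l, Good n c
  | [], _, _, x, hx => by simp at hx
  | _ :: _, [], h, _, _ => by simp [codesOK] at h
  | y :: l, w :: m, h, x, hx => by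
    simp only [codesOK, Bool.and_eq_true] at h
    rcases List.mem_cons.1 hx with rfl | hx
    · exact good_of_code w (Nat.eq_of_beq_eq_true h.1)
    · exact codesOK_spec l m h.2 x hx

theorem el_mul_of_comp (hn : n ≤ 10) {a b c d : ℕ} (ha : Good n a) (hb : Good n b) (hc : Good n c)
    (hd : Good n d) (h : comp a b = comp c d) : el n a * el n b = el n c * el n d := by
  obtain ⟨a, rfl⟩ := ha
  obtain ⟨b, rfl⟩ := hb
  obtain ⟨c, rfl⟩ := hc
  obtain ⟨d, rfl⟩ := hd
  rw [comp_code hn, comp_code hn] at h
  simp only [el_code hn]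
  exact Subtype.ext (code_injective hn h)

theorem el_idCode (hn : n ≤ 10) : el n idCode = 1 := by
  have h := el_code hn (1 : alternatingGroup (Fin n))
  rwa [OneMemClass.coe_one, code_one] at h

variable {V : Type*} [AddCommGroup V] [DistribMulAction (alternatingGroup (Fin n)) V]

/-- A finite nonzero module has a nonzero vector fixed by a listed `p`-subgroup. -/
theorem exists_fixed (hn : n ≤ 10) [Fact p.Prime] [Finite V] (hp : ∀ x : V, p • x = 0) {v₀ : V}
    (hv₀ : v₀ ≠ 0) {cs gens : List ℕ} {k : ℕ} (h : closedOK cs gens (p ^ k) = true)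
    (hgood : ∀ c ∈ gens, Good n c) :
    ∃ v : V, v ≠ 0 ∧ ∀ c ∈ gens, el n c • v = v := by
  simp only [closedOK, Bool.and_eq_true, List.all_eq_true, List.contains_iff_mem] at h
  obtain ⟨⟨hone, hg⟩, hpow⟩ := h
  set H := Subgroup.closure (Set.range fun c : {c // c ∈ gens} => el n c.1)
  have hp' : ∀ x : alternatingGroup (Fin n), code (x : Equiv.Perm (Fin n)) ∈ cs → x ^ p ^ k = 1 :=
    fun x hx => eq_one_of_code hn
      (by rw [← compPow_code hn]; exact Nat.eq_of_beq_eq_true (hpow _ hx))
  have hgcode : ∀ c ∈ gens, code ((el n c : alternatingGroup (Fin n)) : Equiv.Perm (Fin n)) = c := by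
    intro c hc
    obtain ⟨g, rfl⟩ := hgood c hc
    rw [el_code hn]
  have hmem : ∀ x ∈ H, code (x : Equiv.Perm (Fin n)) ∈ cs := by
    intro x hx
    induction hx using Subgroup.closure_induction_left with
    | one => rw [OneMemClass.coe_one, code_one]; exact hone
    | mul_left a ha b _ ih =>
      obtain ⟨⟨c, hc⟩, rfl⟩ := ha
      rw [Subgroup.coe_mul, ← comp_code hn, hgcode c hc]
      exact (hg c hc).2 _ ih
    | inv_mul_cancel a ha b _ ih =>
      obtain ⟨⟨c, hc⟩, rfl⟩ := ha
      show code (((el n c)⁻¹ * b : alternatingGroup (Fin n)) : Equiv.Perm (Fin n)) ∈ cs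
      have he : el n c ^ p ^ k = 1 := hp' _ (by rw [hgcode c hc]; exact (hg c hc).1)
      have hinv : (el n c)⁻¹ = el n c ^ (p ^ k - 1) := by
        refine inv_eq_of_mul_eq_one_right ?_
        rw [← pow_succ', Nat.sub_add_cancel (Nat.one_le_pow _ _ (Fact.out : p.Prime).pos), he]
      rw [hinv]
      generalize p ^ k - 1 = m
      induction m with
      | zero => rwa [pow_zero, one_mul]
      | succ m ihm =>
        rw [pow_succ', mul_assoc, Subgroup.coe_mul, ← comp_code hn, hgcode c hc]
        exact (hg c hc).2 _ ihm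
  have hH : IsPGroup p H := fun x => ⟨k, Subtype.ext (hp' _ (hmem x x.2))⟩
  haveI : Nontrivial V := ⟨⟨v₀, 0, hv₀⟩⟩
  have hord : addOrderOf v₀ = p := addOrderOf_eq_prime (hp v₀) hv₀
  have hdvd : p ∣ Nat.card V := hord ▸ addOrderOf_dvd_natCard v₀
  have h0 : (0 : V) ∈ MulAction.fixedPoints H V := fun x => smul_zero _
  obtain ⟨v, hv, hne⟩ := hH.exists_fixed_point_of_prime_dvd_card_of_fixed_point V hdvd h0
  exact ⟨v, Ne.symm hne, fun c hc => hv ⟨el n c, Subgroup.subset_closure ⟨⟨c, hc⟩, rfl⟩⟩⟩

/-- Conjugation moves eigenvectors. -/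
theorem eigen_conj (hn : n ≤ 10) {h g h' w : ℕ} (hh : Good n h) (hg : Good n g) (hh' : Good n h')
    (e : comp h g = comp g h') {v : V} (hv : el n h' • v = w • v) :
    el n h • el n g • v = w • el n g • v := by
  rw [smul_smul, el_mul_of_comp hn hh hg hg hh' e, mul_smul, hv, smul_comm]

/-- Every listed element is moved into the list by `g`. -/
def normOK (g : ℕ) (cs : List ℕ) : Bool :=
  cs.all fun c => cs.any fun c' => Nat.beq (comp c g) (comp g c')

/-- `v` is fixed by every listed element. -/
def FixedBy (n : ℕ) [DistribMulAction (alternatingGroup (Fin n)) V] (cs : List ℕ) (v : V) : Prop :=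
  ∀ c ∈ cs, el n c • v = v

theorem fixedBy_smul (hn : n ≤ 10) {g : ℕ} {cs : List ℕ} (hg : Good n g) (hcs : ∀ c ∈ cs, Good n c)
    (h : normOK g cs = true) {v : V} (hv : FixedBy n cs v) : FixedBy n cs (el n g • v) := by
  intro c hc
  simp only [normOK, List.all_eq_true, List.any_eq_true] at h
  obtain ⟨c', hc', e⟩ := h c hc
  have := eigen_conj hn (v := v) (w := 1) (hcs c hc) hg (hcs c' hc') (Nat.eq_of_beq_eq_true e)
    (by rw [one_nsmul]; exact hv c' hc')
  rwa [one_nsmul] at this

/-- Bases with equal points and entries have equal values. -/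
theorem bval_congr {b c : Base} (v : V) (hpts : c.pts = b.pts)
    (h : b.pts.all (fun x => Nat.beq (get c.tbl x.1) (get b.tbl x.1)) = true) :
    bval (n := n) v c = bval (n := n) v b := by
  rw [bval, bval, hpts]
  simp only [List.all_eq_true] at h
  generalize b.pts = l at h
  induction l with
  | nil => rfl
  | cons x l ih =>
    simp only [lsum_cons]
    rw [ih fun y hy => h y (List.mem_cons_of_mem _ hy), pt, pt,
      Nat.eq_of_beq_eq_true (h x List.mem_cons_self)]

end CfsgLib.AltCent
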