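import Cfsg.Agent.AltCent.Chain
import Cfsg.Agent.AltCent.TwoSt.Data
import Cfsg.Agent.AltCent.TwoZero.Data
import Cfsg.Agent.AltCent.TwoOne.Data
import Cfsg.Agent.AltCent.TwoTwo.Data
import Cfsg.Agent.AltCent.TwoPair.Data

/-! # Derived vectors for degree nine (generated certificate data) -/

set_option autoImplicit false
set_option maxRecDepth 100000

namespace CfsgLib.AltCent.TwoChain

def wit0 : List (List (ℕ × ℕ) × List (ℕ × ℕ) × List (ℕ × ℕ)) :=
  [([(0, 1), (1, 3), (2, 3)], [], []),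
   ([(0, 2), (2, 0), (1, 0)], [], []),
   ([(0, 3), (1, 1), (2, 7)], [], []),
   ([(0, 4), (2, 5), (1, 5)], [], []),
   ([(0, 5), (1, 11), (2, 29)], [], []),
   ([(1, 0), (0, 0), (2, 2)], [], [])]

theorem eig0_ok : gensEigenOK 2 TwoSt.base0 TwoSt.B TwoZero.gens wit0 = true := by decide +kernel

def wit1 : List (List (ℕ × ℕ) × List (ℕ × ℕ) × List (ℕ × ℕ)) :=
  [([(0, 1), (1, 2), (2, 2)], [], []),
   ([(0, 2), (1, 1), (2, 6)], [], []),
   ([(0, 3), (2, 0), (1, 0)], [], []),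
   ([(0, 4), (1, 40), (2, 33)], [], []),
   ([(0, 5), (1, 5), (2, 5)], [], []),
   ([(1, 0), (0, 0), (2, 3)], [], [])]

theorem eig1_ok : gensEigenOK 2 TwoSt.base1 TwoSt.B TwoOne.gens wit1 = true := by decide +kernel

def wit2 : List (List (ℕ × ℕ) × List (ℕ × ℕ) × List (ℕ × ℕ)) :=
  [([(0, 1), (1, 2), (2, 2)], [], []),
   ([(0, 2), (1, 1), (2, 6)], [], []),
   ([(0, 3), (2, 0), (1, 0)], [], []),
   ([(0, 4), (1, 4), (2, 40)], [], []),
   ([(0, 5), (2, 61), (1, 61)], [], []),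
   ([(1, 0), (0, 0), (2, 3)], [], [])]

theorem eig2_ok : gensEigenOK 2 TwoSt.base2 TwoSt.B TwoTwo.gens wit2 = true := by decide +kernel

def wit3 : List (List (ℕ × ℕ) × List (ℕ × ℕ) × List (ℕ × ℕ)) :=
  [([(0, 1), (1, 2), (2, 2)], [], []),
   ([(0, 2), (1, 1), (2, 7)], [], []),
   ([(0, 3), (2, 0), (1, 0)], [], []),
   ([(0, 4), (1, 4), (2, 68)], [], []),
   ([(0, 5), (2, 131), (1, 131)], [], []),
   ([(0, 6), (2, 55), (1, 73)], [], []),
   ([(1, 0), (0, 0), (2, 3)], [], [])]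

theorem eig3_ok : gensEigenOK 2 TwoOne.base0 TwoOne.B TwoPair.gens wit3 = true := by decide +kernel

def wit4 : List (List (ℕ × ℕ) × List (ℕ × ℕ) × List (ℕ × ℕ)) :=
  [([(0, 1), (1, 2), (2, 2)], [], []),
   ([(0, 2), (1, 1), (2, 7)], [], []),
   ([(0, 3), (2, 0), (1, 0)], [], []),
   ([(0, 4), (1, 68), (2, 53)], [], []),
   ([(0, 5), (1, 5), (2, 5)], [], []),
   ([(1, 0), (0, 0), (2, 3)], [], []),
   ([(0, 6), (2, 63), (1, 73)], [], [])]

theorem eig4_ok : gensEigenOK 2 TwoTwo.base0 TwoTwo.B TwoPair.gens wit4 = true := by decide +kernel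

end CfsgLib.AltCent.TwoChain
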