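import Cfsg.Agent.AltCent.Setup
import Cfsg.Agent.AltCent.TwoChain
import Cfsg.Agent.AltCent.TwoSt.Main
import Cfsg.Agent.AltCent.TwoZero.Main
import Cfsg.Agent.AltCent.TwoOne.Main
import Cfsg.Agent.AltCent.TwoTwo.Main
import Cfsg.Agent.AltCent.TwoPair.Main

/-! # Degree nine in characteristic two -/

set_option autoImplicit false
set_option maxRecDepth 100000

namespace CfsgLib.AltCent

theorem stGens_closed :
    closedOK ((List.range TwoSt.B.cnt).map (get TwoSt.B.tbl)) (TwoSt.gens.map Prod.fst) (2 ^ 3) = true := by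
  decide +kernel

theorem stGens_good : codesOK 9 (TwoSt.gens.map Prod.fst) TwoSt.genWords = true := by decide +kernel
theorem zeroGens_good : codesOK 9 (TwoZero.gens.map Prod.fst) TwoZero.genWords = true := by decide +kernel
theorem oneGens_good : codesOK 9 (TwoOne.gens.map Prod.fst) TwoOne.genWords = true := by decide +kernel
theorem twoGens_good : codesOK 9 (TwoTwo.gens.map Prod.fst) TwoTwo.genWords = true := by decide +kernel
theorem pairGens_good : codesOK 9 (TwoPair.gens.map Prod.fst) TwoPair.genWords = true := by decide +kernel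

variable {V : Type*} [AddCommGroup V] [DistribMulAction (alternatingGroup (Fin 9)) V]

/-- No faithful enough module exists. -/
theorem eq_zero_two [Finite V] (hp : ∀ x : V, 2 • x = 0) (hX : NoFix 9 V) (x : V) : x = 0 := by
  haveI : Fact (Nat.Prime 2) := ⟨Nat.prime_two⟩
  by_contra hx
  obtain ⟨v, hv0, hv⟩ := exists_fixed (n := 9) (by norm_num) hp hx stGens_closed
    (codesOK_spec _ _ stGens_good)
  have hg : ∀ g ∈ TwoSt.gens, el 9 g.1 • v = g.2 • v := fun g hgm => by
    rw [hv _ (List.mem_map_of_mem hgm)]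
    have hw : TwoSt.gens.all (fun g => Nat.beq g.2 1) = true := by decide
    rw [Nat.eq_of_beq_eq_true (List.all_eq_true.1 hw g hgm), one_nsmul]
  have hB := TwoSt.acts hp v hg
  have derive : ∀ {v : V} {B : Grp} (_ : Acts (n := 9) v B) {b : Base}
      (_ : GoodTab 9 b.tbl b.cnt) {gens : List (ℕ × ℕ)} {ws : List (List ℕ)}
      (_ : codesOK 9 (gens.map Prod.fst) ws = true) {m : _}
      (_ : gensEigenOK 2 b B gens m = true),
      ∀ g ∈ gens, el 9 g.1 • bval (n := 9) v b = g.2 • bval (n := 9) v b :=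
    fun hB _ hb _ _ hw _ hm => gensEigenOK_spec (by norm_num) hp hB hb _ _ hm
      fun g hgm => codesOK_spec _ _ hw _ (List.mem_map_of_mem hgm)
  have h0 : bval (n := 9) v TwoSt.base0 = 0 :=
    TwoZero.eq_zero hp hX _ (derive hB (goodTab_of_repsOK TwoSt.baseWords0 rfl TwoSt.baseWords0_ok)
      zeroGens_good TwoChain.eig0_ok)
  have h1 : bval (n := 9) v TwoSt.base1 = 0 := by
    have hg1 := derive hB (goodTab_of_repsOK TwoSt.baseWords1 rfl TwoSt.baseWords1_ok)
      oneGens_good TwoChain.eig1_ok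
    refine TwoOne.eq_zero hp hX _ hg1 ?_
    exact TwoPair.eq_zero hp hX _ (derive (TwoOne.acts hp _ hg1)
      (goodTab_of_repsOK TwoOne.baseWords0 rfl TwoOne.baseWords0_ok) pairGens_good TwoChain.eig3_ok)
  have h2 : bval (n := 9) v TwoSt.base2 = 0 := by
    have hg2 := derive hB (goodTab_of_repsOK TwoSt.baseWords2 rfl TwoSt.baseWords2_ok)
      twoGens_good TwoChain.eig2_ok
    refine TwoTwo.eq_zero hp hX _ hg2 ?_
    exact TwoPair.eq_zero hp hX _ (derive (TwoTwo.acts hp _ hg2)
      (goodTab_of_repsOK TwoTwo.baseWords0 rfl TwoTwo.baseWords0_ok) pairGens_good TwoChain.eig4_ok)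
  exact hv0 (TwoSt.eq_zero hp hX v hg h0 h1 h2)

end CfsgLib.AltCent
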